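import Cfsg.Agent.H287.F4.Mat
import Cfsg.Agent.H928.Ore.Block
import Cfsg.Agent.H231.QS.TwCen

/-!
Elements of `SL₂(K)`, `SL₃(K)` fixing a point (S2491, 2E6(2), box PAR).

* `exists_fst3`, `exists_fst2`, `conj_fst` : an eigenvector gives a conjugate with first column `(a, 0, 0)`;
* `mem3`, `mem2` : such an element lies in every subgroup containing the generators of the parabolic subgroup.
-/

set_option autoImplicit false

namespace Cfsg.Agent.H287.F4.Fst

open Matrix
open Cfsg.Agent.H928.Ore.Block (dg3)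

variable {K : Type*} [Field K]

theorem exists_fst3 {v : Fin 3 → K} (hv : v ≠ 0) : ∃ E : Matrix.SpecialLinearGroup (Fin 3) K,
    (E : Matrix (Fin 3) (Fin 3) K) *ᵥ (Pi.single 0 1) = v := by
  by_cases h0 : v 0 = 0
  · by_cases h1 : v 1 = 0
    · have h2 : v 2 ≠ 0 := by
        intro h2
        apply hv
        funext i
        fin_cases i
        · exact h0
        · exact h1
        · exact h2
      refine ⟨⟨!![0, 0, (v 2)⁻¹; 0, -1, 0; v 2, 0, 0], ?_⟩, ?_⟩
      · rw [Matrix.det_fin_three]; simp [h2]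
      · rw [Matrix.mulVec_single_one]
        funext i
        fin_cases i <;> simp [Matrix.col, h0, h1]
    · refine ⟨⟨!![0, -(v 1)⁻¹, 0; v 1, 0, 0; v 2, 0, 1], ?_⟩, ?_⟩
      · rw [Matrix.det_fin_three]; simp [h1]
      · rw [Matrix.mulVec_single_one]
        funext i
        fin_cases i <;> simp [Matrix.col, h0]
  · refine ⟨⟨!![v 0, 0, 0; v 1, (v 0)⁻¹, 0; v 2, 0, 1], ?_⟩, ?_⟩
    · rw [Matrix.det_fin_three]; simp [h0]
    · rw [Matrix.mulVec_single_one]
      funext i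
      fin_cases i <;> simp [Matrix.col]

theorem exists_fst2 {v : Fin 2 → K} (hv : v ≠ 0) : ∃ E : Matrix.SpecialLinearGroup (Fin 2) K,
    (E : Matrix (Fin 2) (Fin 2) K) *ᵥ (Pi.single 0 1) = v := by
  by_cases h0 : v 0 = 0
  · have h1 : v 1 ≠ 0 := by
      intro h2
      apply hv
      funext i
      fin_cases i
      · exact h0
      · exact h2
    refine ⟨⟨!![0, -(v 1)⁻¹; v 1, 0], ?_⟩, ?_⟩
    · rw [Matrix.det_fin_two]; simp [h1]
    · rw [Matrix.mulVec_single_one]
      funext i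
      fin_cases i <;> simp [Matrix.col, h0]
  · refine ⟨⟨!![v 0, 0; v 1, (v 0)⁻¹], ?_⟩, ?_⟩
    · rw [Matrix.det_fin_two]; simp [h0]
    · rw [Matrix.mulVec_single_one]
      funext i
      fin_cases i <;> simp [Matrix.col]

theorem conj_fst {n : ℕ} [NeZero n] {D E : Matrix.SpecialLinearGroup (Fin n) K} {v : Fin n → K} {a : K}
    (hE : (E : Matrix (Fin n) (Fin n) K) *ᵥ (Pi.single 0 1) = v) (hD : (D : Matrix (Fin n) (Fin n) K) *ᵥ v = a • v) :
    ∀ i, i ≠ 0 → ((E⁻¹ * D * E : Matrix.SpecialLinearGroup (Fin n) K) : Matrix (Fin n) (Fin n) K) i 0 = 0 := by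
  intro i hi
  have h1 : ((E⁻¹ * D * E : Matrix.SpecialLinearGroup (Fin n) K) : Matrix (Fin n) (Fin n) K) *ᵥ (Pi.single 0 1) =
      a • Pi.single 0 1 := by
    rw [Matrix.SpecialLinearGroup.coe_mul, Matrix.SpecialLinearGroup.coe_mul, ← Matrix.mulVec_mulVec, hE,
      ← Matrix.mulVec_mulVec, hD, Matrix.mulVec_smul, ← hE, Matrix.mulVec_mulVec, ← Matrix.SpecialLinearGroup.coe_mul,
      inv_mul_cancel, Matrix.SpecialLinearGroup.coe_one, Matrix.one_mulVec]
  have h2 := congrFun h1 i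
  rw [Matrix.mulVec_single_one] at h2
  simpa [Matrix.col, hi] using h2

/-- the lower block -/
def blk : Matrix.SpecialLinearGroup (Fin 2) K →* Matrix.SpecialLinearGroup (Fin 3) K where
  toFun A := ⟨!![1, 0, 0; 0, A 0 0, A 0 1; 0, A 1 0, A 1 1], by
    rw [Matrix.det_fin_three]
    have h := A.2
    rw [Matrix.det_fin_two] at h
    simp only [Matrix.of_apply, Matrix.cons_val', Matrix.cons_val_zero, Matrix.cons_val_one, Matrix.cons_val]
    linear_combination h⟩
  map_one' := by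
    apply Subtype.ext
    ext i j
    fin_cases i <;> fin_cases j <;> simp
  map_mul' A B := by
    apply Subtype.ext
    change !![1, 0, 0; 0, (A * B) 0 0, (A * B) 0 1; 0, (A * B) 1 0, (A * B) 1 1] =
      !![1, 0, 0; 0, A 0 0, A 0 1; 0, A 1 0, A 1 1] * !![1, 0, 0; 0, B 0 0, B 0 1; 0, B 1 0, B 1 1]
    ext i j
    fin_cases i <;> fin_cases j <;> simp [Matrix.mul_apply, Fin.sum_univ_three, Fin.sum_univ_two]

theorem mem3 {M : Subgroup (Matrix.SpecialLinearGroup (Fin 3) K)}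
    (h01 : ∀ c, Matrix.SpecialLinearGroup.transvection (show (0 : Fin 3) ≠ 1 by decide) c ∈ M)
    (h02 : ∀ c, Matrix.SpecialLinearGroup.transvection (show (0 : Fin 3) ≠ 2 by decide) c ∈ M)
    (h12 : ∀ c, Matrix.SpecialLinearGroup.transvection (show (1 : Fin 3) ≠ 2 by decide) c ∈ M)
    (h21 : ∀ c, Matrix.SpecialLinearGroup.transvection (show (2 : Fin 3) ≠ 1 by decide) c ∈ M)
    (hd : ∀ a : Kˣ, dg3 a 1 ∈ M) {D : Matrix.SpecialLinearGroup (Fin 3) K}
    (h1 : (D : Matrix (Fin 3) (Fin 3) K) 1 0 = 0) (h2 : (D : Matrix (Fin 3) (Fin 3) K) 2 0 = 0) : D ∈ M := by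
  have hb : M.comap blk = ⊤ := Cfsg.Agent.OddHalf.NI.Mult.mem_of_up_lo
    (fun a => by
      rw [Subgroup.mem_comap]
      have e : blk (Cfsg.Agent.OddHalf.NI.Mult.up a) =
          Matrix.SpecialLinearGroup.transvection (show (1 : Fin 3) ≠ 2 by decide) a := by
        apply Subtype.ext
        change !![1, 0, 0; 0, _, _; 0, _, _] = 1 + Matrix.single 1 2 a
        ext i j
        fin_cases i <;> fin_cases j <;> simp [Cfsg.Agent.OddHalf.NI.Mult.up, Matrix.single]
      rw [e]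
      exact h12 a)
    (fun a => by
      rw [Subgroup.mem_comap]
      have e : blk (Cfsg.Agent.OddHalf.NI.Mult.lo a) =
          Matrix.SpecialLinearGroup.transvection (show (2 : Fin 3) ≠ 1 by decide) a := by
        apply Subtype.ext
        change !![1, 0, 0; 0, _, _; 0, _, _] = 1 + Matrix.single 2 1 a
        ext i j
        fin_cases i <;> fin_cases j <;> simp [Cfsg.Agent.OddHalf.NI.Mult.lo, Matrix.single]
      rw [e]
      exact h21 a)
  have hdet := D.2
  rw [Matrix.det_fin_three] at hdet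
  have e1 : (D.1 1 0 : K) = 0 := h1
  have e2 : (D.1 2 0 : K) = 0 := h2
  rw [e1, e2] at hdet
  have hdet' : D.1 0 0 * (D.1 1 1 * D.1 2 2 - D.1 1 2 * D.1 2 1) = 1 := by linear_combination hdet
  have ha : D.1 0 0 ≠ 0 := by
    intro h
    rw [h, zero_mul] at hdet'
    exact zero_ne_one hdet'
  obtain ⟨a, ha'⟩ : ∃ a : Kˣ, (a : K) = D.1 0 0 := ⟨Units.mk0 _ ha, rfl⟩
  obtain ⟨D1, hD1⟩ : ∃ D1 : Matrix.SpecialLinearGroup (Fin 2) K,
      D1 = ⟨!![a * D.1 1 1, a * D.1 1 2; D.1 2 1, D.1 2 2], by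
        rw [Matrix.det_fin_two_of, ha']
        linear_combination hdet'⟩ := ⟨_, rfl⟩
  have h3 : blk D1 ∈ M := by
    have : D1 ∈ M.comap blk := by rw [hb]; exact Subgroup.mem_top _
    exact this
  have h4 : D = Matrix.SpecialLinearGroup.transvection (show (0 : Fin 3) ≠ 1 by decide)
      ((a : K) * (D.1 0 1 * D.1 2 2 - D.1 0 2 * D.1 2 1)) *
      Matrix.SpecialLinearGroup.transvection (show (0 : Fin 3) ≠ 2 by decide)
      ((a : K) * (D.1 0 2 * D.1 1 1 - D.1 0 1 * D.1 1 2)) * dg3 a 1 * blk D1 := by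
    apply Subtype.ext
    change D.1 = (1 + Matrix.single 0 1 ((a : K) * (D.1 0 1 * D.1 2 2 - D.1 0 2 * D.1 2 1))) *
      (1 + Matrix.single 0 2 ((a : K) * (D.1 0 2 * D.1 1 1 - D.1 0 1 * D.1 1 2))) *
      Matrix.diagonal ![(a : K), ((a⁻¹ * 1 : Kˣ) : K), ((1⁻¹ : Kˣ) : K)] *
      !![1, 0, 0; 0, D1 0 0, D1 0 1; 0, D1 1 0, D1 1 1]
    have hai : (a : K)⁻¹ * a = 1 := inv_mul_cancel₀ a.ne_zero
    rw [hD1]
    rw [← ha'] at hdet'
    ext i j
    fin_cases i <;> fin_cases j <;>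
      simp [Matrix.mul_apply, Fin.sum_univ_three, Matrix.single, Matrix.diagonal, e1, e2, ha']
    · rw [← ha']
      linear_combination (-(D.1 0 1)) * hdet' - (a : K) * (D.1 0 1 * D.1 2 2 - D.1 0 2 * D.1 2 1) * D.1 1 1 * hai
    · rw [← ha']
      linear_combination (-(D.1 0 2)) * hdet' - (a : K) * (D.1 0 1 * D.1 2 2 - D.1 0 2 * D.1 2 1) * D.1 1 2 * hai
    · rw [inv_mul_cancel_left₀ ha]
    · rw [inv_mul_cancel_left₀ ha]
  rw [h4]
  exact mul_mem (mul_mem (mul_mem (h01 _) (h02 _)) (hd a)) h3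

/-- the upper block -/
def blu : Matrix.SpecialLinearGroup (Fin 2) K →* Matrix.SpecialLinearGroup (Fin 3) K where
  toFun A := ⟨!![A 0 0, A 0 1, 0; A 1 0, A 1 1, 0; 0, 0, 1], by
    rw [Matrix.det_fin_three]
    have h := A.2
    rw [Matrix.det_fin_two] at h
    simp only [Matrix.of_apply, Matrix.cons_val', Matrix.cons_val_zero, Matrix.cons_val_one, Matrix.cons_val]
    linear_combination h⟩
  map_one' := by
    apply Subtype.ext
    ext i j
    fin_cases i <;> fin_cases j <;> simp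
  map_mul' A B := by
    apply Subtype.ext
    change !![(A * B) 0 0, (A * B) 0 1, 0; (A * B) 1 0, (A * B) 1 1, 0; 0, 0, 1] =
      !![A 0 0, A 0 1, 0; A 1 0, A 1 1, 0; 0, 0, 1] * !![B 0 0, B 0 1, 0; B 1 0, B 1 1, 0; 0, 0, 1]
    ext i j
    fin_cases i <;> fin_cases j <;> simp [Matrix.mul_apply, Fin.sum_univ_three, Fin.sum_univ_two]

theorem blu_up (a : K) : blu (Cfsg.Agent.OddHalf.NI.Mult.up a) =
    Matrix.SpecialLinearGroup.transvection (show (0 : Fin 3) ≠ 1 by decide) a := by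
  apply Subtype.ext
  change !![_, _, 0; _, _, 0; 0, 0, 1] = 1 + Matrix.single 0 1 a
  ext i j
  fin_cases i <;> fin_cases j <;> simp [Cfsg.Agent.OddHalf.NI.Mult.up, Matrix.single]

theorem blu_lo (a : K) : blu (Cfsg.Agent.OddHalf.NI.Mult.lo a) =
    Matrix.SpecialLinearGroup.transvection (show (1 : Fin 3) ≠ 0 by decide) a := by
  apply Subtype.ext
  change !![_, _, 0; _, _, 0; 0, 0, 1] = 1 + Matrix.single 1 0 a
  ext i j
  fin_cases i <;> fin_cases j <;> simp [Cfsg.Agent.OddHalf.NI.Mult.lo, Matrix.single]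

/-- block diagonal matrices -/
def mx (B : Matrix (Fin 2) (Fin 2) K) (c : K) : Matrix (Fin 3) (Fin 3) K := !![B 0 0, B 0 1, 0; B 1 0, B 1 1, 0; 0, 0, c]

theorem mx_mul (B B' : Matrix (Fin 2) (Fin 2) K) (c c' : K) : mx B c * mx B' c' = mx (B * B') (c * c') := by
  unfold mx
  ext i j
  fin_cases i <;> fin_cases j <;> simp [Matrix.mul_apply, Fin.sum_univ_three, Fin.sum_univ_two]

theorem mx_scalar (b : K) : mx (Matrix.scalar (Fin 2) b) b = Matrix.scalar (Fin 3) b := by
  unfold mx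
  ext i j
  fin_cases i <;> fin_cases j <;> simp [Matrix.scalar_apply]

theorem mx_one : mx (1 : Matrix (Fin 2) (Fin 2) K) 1 = 1 := by
  have := mx_scalar (1 : K)
  rwa [map_one, map_one] at this

theorem mx_pow (B : Matrix (Fin 2) (Fin 2) K) (c : K) (n : ℕ) : mx B c ^ n = mx (B ^ n) (c ^ n) := by
  induction n with
  | zero => rw [pow_zero, pow_zero, pow_zero, mx_one]
  | succ n ih => rw [pow_succ, ih, mx_mul, pow_succ, pow_succ]

theorem dg3_blu (a b : Kˣ) (A : Matrix.SpecialLinearGroup (Fin 2) K) :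
    ((dg3 a b * blu A : Matrix.SpecialLinearGroup (Fin 3) K) : Matrix (Fin 3) (Fin 3) K) =
      mx (Matrix.diagonal ![(a : K), (a : K)⁻¹ * b] * (A : Matrix (Fin 2) (Fin 2) K)) (b : K)⁻¹ := by
  change Matrix.diagonal ![(a : K), ((a⁻¹ * b : Kˣ) : K), ((b⁻¹ : Kˣ) : K)] *
      !![A 0 0, A 0 1, 0; A 1 0, A 1 1, 0; 0, 0, 1] = _
  unfold mx
  ext i j
  fin_cases i <;> fin_cases j <;> simp

/-- generation of `SL₃` -/
theorem gen3 {M : Subgroup (Matrix.SpecialLinearGroup (Fin 3) K)}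
    (h01 : ∀ c, Matrix.SpecialLinearGroup.transvection (show (0 : Fin 3) ≠ 1 by decide) c ∈ M)
    (h10 : ∀ c, Matrix.SpecialLinearGroup.transvection (show (1 : Fin 3) ≠ 0 by decide) c ∈ M)
    (h12 : ∀ c, Matrix.SpecialLinearGroup.transvection (show (1 : Fin 3) ≠ 2 by decide) c ∈ M)
    (h21 : ∀ c, Matrix.SpecialLinearGroup.transvection (show (2 : Fin 3) ≠ 1 by decide) c ∈ M) :
    ∀ D, D ∈ M := by
  have h02 : ∀ c, Matrix.SpecialLinearGroup.transvection (show (0 : Fin 3) ≠ 2 by decide) c ∈ M := by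
    intro c
    have e : Matrix.SpecialLinearGroup.transvection (show (0 : Fin 3) ≠ 2 by decide) c =
        Matrix.SpecialLinearGroup.transvection (show (0 : Fin 3) ≠ 1 by decide) c *
        Matrix.SpecialLinearGroup.transvection (show (1 : Fin 3) ≠ 2 by decide) 1 *
        Matrix.SpecialLinearGroup.transvection (show (0 : Fin 3) ≠ 1 by decide) (-c) *
        Matrix.SpecialLinearGroup.transvection (show (1 : Fin 3) ≠ 2 by decide) (-1) := by
      apply Subtype.ext
      change 1 + Matrix.single 0 2 c = (1 + Matrix.single 0 1 c) * (1 + Matrix.single 1 2 1) *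
        (1 + Matrix.single 0 1 (-c)) * (1 + Matrix.single 1 2 (-1))
      ext i j
      fin_cases i <;> fin_cases j <;> simp [Matrix.mul_apply, Fin.sum_univ_three, Matrix.single]
    rw [e]
    exact mul_mem (mul_mem (mul_mem (h01 _) (h12 _)) (h01 _)) (h12 _)
  have h20 : ∀ c, Matrix.SpecialLinearGroup.transvection (show (2 : Fin 3) ≠ 0 by decide) c ∈ M := by
    intro c
    have e : Matrix.SpecialLinearGroup.transvection (show (2 : Fin 3) ≠ 0 by decide) c =
        Matrix.SpecialLinearGroup.transvection (show (2 : Fin 3) ≠ 1 by decide) c *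
        Matrix.SpecialLinearGroup.transvection (show (1 : Fin 3) ≠ 0 by decide) 1 *
        Matrix.SpecialLinearGroup.transvection (show (2 : Fin 3) ≠ 1 by decide) (-c) *
        Matrix.SpecialLinearGroup.transvection (show (1 : Fin 3) ≠ 0 by decide) (-1) := by
      apply Subtype.ext
      change 1 + Matrix.single 2 0 c = (1 + Matrix.single 2 1 c) * (1 + Matrix.single 1 0 1) *
        (1 + Matrix.single 2 1 (-c)) * (1 + Matrix.single 1 0 (-1))
      ext i j
      fin_cases i <;> fin_cases j <;> simp [Matrix.mul_apply, Fin.sum_univ_three, Matrix.single]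
    rw [e]
    exact mul_mem (mul_mem (mul_mem (h21 _) (h10 _)) (h21 _)) (h10 _)
  intro D
  refine Cfsg.Agent.LieClassical.SLGen.transvection_induction (fun D => D ∈ M) ?_ ?_ D
  · intro i j hij c
    have key : ∀ i j : Fin 3, i ≠ j → (i = 0 ∧ j = 1) ∨ (i = 1 ∧ j = 0) ∨ (i = 1 ∧ j = 2) ∨ (i = 2 ∧ j = 1) ∨
      (i = 0 ∧ j = 2) ∨ (i = 2 ∧ j = 0) := by decide
    rcases key i j hij with ⟨rfl, rfl⟩ | ⟨rfl, rfl⟩ | ⟨rfl, rfl⟩ | ⟨rfl, rfl⟩ | ⟨rfl, rfl⟩ | ⟨rfl, rfl⟩
    exacts [h01 c, h10 c, h12 c, h21 c, h02 c, h20 c]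
  · intro A B hA hB
    exact mul_mem hA hB

theorem mem02 {M : Subgroup (Matrix.SpecialLinearGroup (Fin 3) K)}
    (h01 : ∀ c, Matrix.SpecialLinearGroup.transvection (show (0 : Fin 3) ≠ 1 by decide) c ∈ M)
    (h12 : ∀ c, Matrix.SpecialLinearGroup.transvection (show (1 : Fin 3) ≠ 2 by decide) c ∈ M) (c : K) :
    Matrix.SpecialLinearGroup.transvection (show (0 : Fin 3) ≠ 2 by decide) c ∈ M := by
  have e : Matrix.SpecialLinearGroup.transvection (show (0 : Fin 3) ≠ 2 by decide) c =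
      Matrix.SpecialLinearGroup.transvection (show (0 : Fin 3) ≠ 1 by decide) c *
      Matrix.SpecialLinearGroup.transvection (show (1 : Fin 3) ≠ 2 by decide) 1 *
      Matrix.SpecialLinearGroup.transvection (show (0 : Fin 3) ≠ 1 by decide) (-c) *
      Matrix.SpecialLinearGroup.transvection (show (1 : Fin 3) ≠ 2 by decide) (-1) := by
    apply Subtype.ext
    change 1 + Matrix.single 0 2 c = (1 + Matrix.single 0 1 c) * (1 + Matrix.single 1 2 1) *
      (1 + Matrix.single 0 1 (-c)) * (1 + Matrix.single 1 2 (-1))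
    ext i j
    fin_cases i <;> fin_cases j <;> simp [Matrix.mul_apply, Fin.sum_univ_three, Matrix.single]
  rw [e]
  exact mul_mem (mul_mem (mul_mem (h01 _) (h12 _)) (h01 _)) (h12 _)

/-- the diagonal matrices as a homomorphism -/
theorem dg3_mul (a b a' b' : Kˣ) : dg3 (a * a') (b * b') = dg3 a b * dg3 a' b' := by
  apply Subtype.ext
  change Matrix.diagonal _ = Matrix.diagonal _ * Matrix.diagonal _
  rw [Matrix.diagonal_mul_diagonal]
  congr 1
  funext i
  fin_cases i <;> simp [mul_mul_mul_comm, mul_comm]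

end Cfsg.Agent.H287.F4.Fst
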