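import Cfsg.Agent.H744.Fx.TwE6A
import Cfsg.Agent.H231.QS.TwCen

/-!
The homomorphism `SL₃(q²) → ²E₆(q)` on the nodes `2, 3` (S2491, 2E6(2), box PAR).

* `exists_pi` : with its values on the transvections of the nodes.
-/

set_option autoImplicit false
set_option linter.unusedSectionVars false

namespace Cfsg.Agent.H287.F4.Hom

open Matrix Subgroup Cfsg Cfsg.Lie Cfsg.Lie.ChevalleyDatum
open Cfsg.Agent.ChevalleyStructure Cfsg.Agent.ChevalleyStructure.Elts Cfsg.Agent.ChevalleyStructure.CoxeterGeom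
  Cfsg.Agent.ChevalleyStructure.SL2Rep Cfsg.Agent.ChevalleyStructure.SL2Hom
open Cfsg.Agent.TitsThree.KExcBase Cfsg.Agent.TitsThree.KExcRT Cfsg.Agent.AGraded
open Cfsg.Agent.H92.ExcSL2 (SL2 ph ph_eq_one ph_commute coe_ph phi_up phi_lo OrthB Orth4 commute_of_up_lo xG_commute
  orderOf_ph thr orderOf_thr wel wel_sq orderOf_wel ph_injective)
open Cfsg.Agent.H254.Fx Cfsg.Agent.H807.Fx
open Cfsg.Agent.H783.ExoX2 Cfsg.Agent.H343 Cfsg.Agent.ETable.Exc
open Cfsg.Agent.H744.Fx.TwE6 (rA sA tA rB sB tB orthAB)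
open Cfsg.Agent.Nodes.RGDFoldSL (Fx mem_Fx psi psi_up psi_lo hv)
open Cfsg.Agent.H231.QS.TwCen (Q2 Q3)
open scoped commutatorElement

universe u

section

variable {K : Type u} [Field K]

/-- the elements of the twisted system -/
noncomputable def xx (φ : K →+* K) (i j : Fin 3) (t : K) : GL chevE6.Idx K :=
  xr inList_E6 rA sA i j t * xr inList_E6 rB sB i j (φ t)

theorem xx_def (φ : K →+* K) (i j : Fin 3) (t : K) : xx φ i j t =
    xG inList_E6 (rA i j) ((sA i j : K) * t) * xG inList_E6 (rB i j) ((sB i j : K) * φ t) := rfl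

theorem stein_xx (φ : K →+* K) : SteinRel (xx φ) := by
  refine stein_mul_twist (stein inList_E6 tA.a tA.b tA.c tA.d) (stein inList_E6 tB.a tB.b tB.c tB.d) ?_ φ
  intro i j k l hij hkl s t
  exact xG_commute inList_E6 (tA.a i j hij) (tB.a k l hkl) (orthAB i j hij k l hkl) _ _

theorem xx01 (φ : K →+* K) (t : K) : xx φ 0 1 t = xG inList_E6 56 t * xG inList_E6 36 (φ t) := by
  rw [xx_def]
  simp [rA, sA, rB, sB]

theorem xx10 (φ : K →+* K) (t : K) : xx φ 1 0 t = xG inList_E6 15 t * xG inList_E6 35 (φ t) := by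
  rw [xx_def]
  simp [rA, sA, rB, sB]

theorem xx12 (φ : K →+* K) (t : K) : xx φ 1 2 t = xG inList_E6 42 (-t) * xG inList_E6 37 (φ (-t)) := by
  rw [xx_def]
  simp [rA, sA, rB, sB]

theorem xx21 (φ : K →+* K) (t : K) : xx φ 2 1 t = xG inList_E6 29 (-t) * xG inList_E6 34 (φ (-t)) := by
  rw [xx_def]
  simp [rA, sA, rB, sB]

variable [Fintype K] {φ : K →+* K} {q : ℕ} (hφ : ∀ t, φ t = t ^ q) (hqq : ∀ t : K, (t ^ q) ^ q = t)

theorem coe_Q3 (A : Matrix.SpecialLinearGroup (Fin 2) (Fx φ 2)) : ((Q3 hφ hqq A : ↥(twistedE6 K q)) : GL chevE6.Idx K) =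
    psi inList_E6 K 56 (Matrix.SpecialLinearGroup.map (Fx φ 2).subtype A) *
      psi inList_E6 K 36 (Matrix.SpecialLinearGroup.map φ (Matrix.SpecialLinearGroup.map (Fx φ 2).subtype A)) := by
  change psi inList_E6 K 56 (Matrix.SpecialLinearGroup.map (Fx φ 2).subtype A) *
    (psi inList_E6 K 36 (Matrix.SpecialLinearGroup.map φ (Matrix.SpecialLinearGroup.map (Fx φ 2).subtype A)) * 1) = _
  rw [mul_one]

theorem coe_Q2 (A : Matrix.SpecialLinearGroup (Fin 2) (Fx φ 2)) : ((Q2 hφ hqq A : ↥(twistedE6 K q)) : GL chevE6.Idx K) =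
    psi inList_E6 K 42 (Matrix.SpecialLinearGroup.map (Fx φ 2).subtype A) *
      psi inList_E6 K 37 (Matrix.SpecialLinearGroup.map φ (Matrix.SpecialLinearGroup.map (Fx φ 2).subtype A)) := by
  change psi inList_E6 K 42 (Matrix.SpecialLinearGroup.map (Fx φ 2).subtype A) *
    (psi inList_E6 K 37 (Matrix.SpecialLinearGroup.map φ (Matrix.SpecialLinearGroup.map (Fx φ 2).subtype A)) * 1) = _
  rw [mul_one]

include hφ hqq

omit [Fintype K] in
theorem mem_two (t : K) : t ∈ Fx φ 2 := mem_Fx.2 (by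
  change φ (φ t) = t
  rw [hφ, hφ, hqq])

theorem e01 (t : Fx φ 2) : xx φ 0 1 (t : K) = ((Q3 hφ hqq (Cfsg.Agent.OddHalf.NI.Mult.up t) : ↥(twistedE6 K q)) :
    GL chevE6.Idx K) := by
  have e : (Cfsg.Agent.OddHalf.NI.Mult.up t : Matrix.SpecialLinearGroup (Fin 2) (Fx φ 2)) = SL2Hom.up t := rfl
  rw [coe_Q3, e, Cfsg.Agent.Nodes.RGDFoldSL.map_up, Cfsg.Agent.Nodes.RGDFoldSL.map_up, psi_up inList_E6 (by decide),
    psi_up inList_E6 (by decide), xx01]
  rfl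

theorem e10 (t : Fx φ 2) : xx φ 1 0 (t : K) = ((Q3 hφ hqq (Cfsg.Agent.OddHalf.NI.Mult.lo t) : ↥(twistedE6 K q)) :
    GL chevE6.Idx K) := by
  have e : (Cfsg.Agent.OddHalf.NI.Mult.lo t : Matrix.SpecialLinearGroup (Fin 2) (Fx φ 2)) = SL2Hom.lo t := rfl
  rw [coe_Q3, e, Cfsg.Agent.Nodes.RGDFoldSL.map_lo, Cfsg.Agent.Nodes.RGDFoldSL.map_lo, psi_lo inList_E6 (by decide),
    psi_lo inList_E6 (by decide), xx10]
  rfl

theorem e12 (t : Fx φ 2) : xx φ 1 2 (t : K) = ((Q2 hφ hqq (Cfsg.Agent.OddHalf.NI.Mult.up (-t)) : ↥(twistedE6 K q)) :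
    GL chevE6.Idx K) := by
  have e : (Cfsg.Agent.OddHalf.NI.Mult.up (-t) : Matrix.SpecialLinearGroup (Fin 2) (Fx φ 2)) = SL2Hom.up (-t) := rfl
  rw [coe_Q2, e, Cfsg.Agent.Nodes.RGDFoldSL.map_up, Cfsg.Agent.Nodes.RGDFoldSL.map_up, psi_up inList_E6 (by decide),
    psi_up inList_E6 (by decide), xx12]
  rfl

theorem e21 (t : Fx φ 2) : xx φ 2 1 (t : K) = ((Q2 hφ hqq (Cfsg.Agent.OddHalf.NI.Mult.lo (-t)) : ↥(twistedE6 K q)) :
    GL chevE6.Idx K) := by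
  have e : (Cfsg.Agent.OddHalf.NI.Mult.lo (-t) : Matrix.SpecialLinearGroup (Fin 2) (Fx φ 2)) = SL2Hom.lo (-t) := rfl
  rw [coe_Q2, e, Cfsg.Agent.Nodes.RGDFoldSL.map_lo, Cfsg.Agent.Nodes.RGDFoldSL.map_lo, psi_lo inList_E6 (by decide),
    psi_lo inList_E6 (by decide), xx21]
  rfl

theorem xx_mem : ∀ i j, i ≠ j → ∀ t, xx φ i j t ∈ twistedE6 K q := by
  have h01 : ∀ t, xx φ 0 1 t ∈ twistedE6 K q := fun t => by
    have e := e01 hφ hqq ⟨t, mem_two hφ hqq t⟩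
    rw [show xx φ 0 1 t = _ from e]
    exact SetLike.coe_mem _
  have h10 : ∀ t, xx φ 1 0 t ∈ twistedE6 K q := fun t => by
    have e := e10 hφ hqq ⟨t, mem_two hφ hqq t⟩
    rw [show xx φ 1 0 t = _ from e]
    exact SetLike.coe_mem _
  have h12 : ∀ t, xx φ 1 2 t ∈ twistedE6 K q := fun t => by
    have e := e12 hφ hqq ⟨t, mem_two hφ hqq t⟩
    rw [show xx φ 1 2 t = _ from e]
    exact SetLike.coe_mem _
  have h21 : ∀ t, xx φ 2 1 t ∈ twistedE6 K q := fun t => by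
    have e := e21 hφ hqq ⟨t, mem_two hφ hqq t⟩
    rw [show xx φ 2 1 t = _ from e]
    exact SetLike.coe_mem _
  have h := stein_xx φ
  have h02 : ∀ t, xx φ 0 2 t ∈ twistedE6 K q := fun t => by
    have e := h.br 0 1 2 (by decide) (by decide) (by decide) t 1
    rw [mul_one, commutatorElement_def] at e
    rw [← e]
    exact mul_mem (mul_mem (mul_mem (h01 _) (h12 _)) (inv_mem (h01 _))) (inv_mem (h12 _))
  have h20 : ∀ t, xx φ 2 0 t ∈ twistedE6 K q := fun t => by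
    have e := h.br 2 1 0 (by decide) (by decide) (by decide) t 1
    rw [mul_one, commutatorElement_def] at e
    rw [← e]
    exact mul_mem (mul_mem (mul_mem (h21 _) (h10 _)) (inv_mem (h21 _))) (inv_mem (h10 _))
  intro i j hij t
  have key : ∀ i j : Fin 3, i ≠ j → (i = 0 ∧ j = 1) ∨ (i = 1 ∧ j = 0) ∨ (i = 1 ∧ j = 2) ∨ (i = 2 ∧ j = 1) ∨
      (i = 0 ∧ j = 2) ∨ (i = 2 ∧ j = 0) := by decide
  rcases key i j hij with ⟨rfl, rfl⟩ | ⟨rfl, rfl⟩ | ⟨rfl, rfl⟩ | ⟨rfl, rfl⟩ | ⟨rfl, rfl⟩ | ⟨rfl, rfl⟩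
  exacts [h01 t, h10 t, h12 t, h21 t, h02 t, h20 t]

/-- **`SL₃(q²) → ²E₆(q)`.** -/
theorem exists_pi : ∃ π : SpecialLinearGroup (Fin 3) K →* ↥(twistedE6 K q),
    (∀ t : Fx φ 2, π (SpecialLinearGroup.transvection (show (0 : Fin 3) ≠ 1 by decide) (t : K)) =
      Q3 hφ hqq (Cfsg.Agent.OddHalf.NI.Mult.up t)) ∧
    (∀ t : Fx φ 2, π (SpecialLinearGroup.transvection (show (1 : Fin 3) ≠ 0 by decide) (t : K)) =
      Q3 hφ hqq (Cfsg.Agent.OddHalf.NI.Mult.lo t)) ∧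
    (∀ t : Fx φ 2, π (SpecialLinearGroup.transvection (show (1 : Fin 3) ≠ 2 by decide) (t : K)) =
      Q2 hφ hqq (Cfsg.Agent.OddHalf.NI.Mult.up (-t))) ∧
    (∀ t : Fx φ 2, π (SpecialLinearGroup.transvection (show (2 : Fin 3) ≠ 1 by decide) (t : K)) =
      Q2 hφ hqq (Cfsg.Agent.OddHalf.NI.Mult.lo (-t))) ∧
    π.ker ≤ Subgroup.center (SpecialLinearGroup (Fin 3) K) := by
  classical
  obtain ⟨π, hπ, _, hker⟩ := Cfsg.Agent.H120.SLHom.exists_hom (m := 2) le_rfl (stein_xx φ)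
  have hmem : ∀ g, π g ∈ twistedE6 K q := by
    intro g
    refine Cfsg.Agent.LieClassical.SLGen.transvection_induction (fun g => π g ∈ twistedE6 K q) ?_ ?_ g
    · intro i j hij c
      rw [hπ i j hij]
      exact xx_mem hφ hqq i j hij c
    · intro A B hA hB
      rw [map_mul]
      exact mul_mem hA hB
  refine ⟨π.codRestrict (twistedE6 K q) hmem, fun t => ?_, fun t => ?_, fun t => ?_, fun t => ?_, ?_⟩
  · apply Subtype.ext
    rw [← e01 hφ hqq t]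
    exact hπ 0 1 (by decide) _
  · apply Subtype.ext
    rw [← e10 hφ hqq t]
    exact hπ 1 0 (by decide) _
  · apply Subtype.ext
    rw [← e12 hφ hqq t]
    exact hπ 1 2 (by decide) _
  · apply Subtype.ext
    rw [← e21 hφ hqq t]
    exact hπ 2 1 (by decide) _
  · intro g hg
    refine hker ⟨0, 1, by decide, 1, ?_⟩ (congrArg Subtype.val hg)
    intro h
    have h1 := e01 hφ hqq 1
    rw [show ((1 : Fx φ 2) : K) = 1 from rfl, h] at h1
    have h2 : Q3 hφ hqq (Cfsg.Agent.OddHalf.NI.Mult.up 1) = Q3 hφ hqq (Cfsg.Agent.OddHalf.NI.Mult.up 0) := by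
      have h3 : Q3 hφ hqq (Cfsg.Agent.OddHalf.NI.Mult.up 1) = 1 := Subtype.ext h1.symm
      have h4 : (Cfsg.Agent.OddHalf.NI.Mult.up (0 : Fx φ 2)) = 1 := by
        apply Subtype.ext
        change !![(1 : Fx φ 2), 0; 0, 1] = 1
        exact Matrix.one_fin_two.symm
      rw [h3, h4, map_one]
    have h5 := Cfsg.Agent.H958.TS.TwCommon.P_up_inj hφ hqq 3 (a := 1) (b := 0) h2
    exact one_ne_zero h5

end

end Cfsg.Agent.H287.F4.Hom
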