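import Cfsg.Agent.H287.F4.Gen
import Cfsg.Agent.H287.F4.Hom
import Cfsg.Agent.H287.F4.Fst
import Cfsg.Agent.H164.F4.Out
import Cfsg.Agent.H928.Ore.TwFin

/-!
`²E₆(2)`: the block `SL₃(4)` on the nodes `2, 3` and the torus (S2491, box PAR).
-/

set_option autoImplicit false
set_option linter.unusedSectionVars false

namespace Cfsg.Agent.H287.F4.Blk

open CoxeterSystem Cfsg.Agent.ChevalleyStructure.CoxeterGeom Cfsg.Agent.Tits.Roots Cfsg.Agent.Tits.Core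
  Cfsg.Agent.Nodes Cfsg.Agent.Nodes.Reps Cfsg.Agent.Nodes.BNOf Cfsg.Agent.Nodes.RGDLib Cfsg.Agent.Nodes.Bruhat
  Cfsg.Agent.Nodes.OppDec Cfsg.Agent.Nodes.LeviDec Cfsg.Agent.Nodes.StabComb
open Cfsg.Lie Subgroup
open Cfsg.Agent.H231.QF
open Cfsg.Agent.Nodes.RGDFoldSL (Fx mem_Fx)
open Cfsg.Agent.H231.QS.TwCen (Q0 Q1 Q2 Q3)
open Cfsg.Agent.OddHalf.NI.Mult (KK up lo dg nn dgHom)
open Cfsg.Agent.H928.Ore.Block (dg3 dg3_eq hel)
open Cfsg.Agent.H164.F4.OutV (charTwo hqq gg_top)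
open Cfsg.Agent.H287.F4.Fst

universe u

/-- the group -/
local notation "YY" => Cfsg.Agent.H231.QF.KK

variable {F : Type u} [Field F] [Fintype F] (hF : Fintype.card F = 4) {φ : F →+* F} (hφ : ∀ t, φ t = t ^ 2)

theorem ne01 : (0 : Fin 3) ≠ 1 := by decide
theorem ne10 : (1 : Fin 3) ≠ 0 := by decide
theorem ne12 : (1 : Fin 3) ≠ 2 := by decide
theorem ne21 : (2 : Fin 3) ≠ 1 := by decide

/-- transvections -/
local notation "tv01" => Matrix.SpecialLinearGroup.transvection ne01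
local notation "tv10" => Matrix.SpecialLinearGroup.transvection ne10
local notation "tv12" => Matrix.SpecialLinearGroup.transvection ne12
local notation "tv21" => Matrix.SpecialLinearGroup.transvection ne21

/-- the data of the block -/
structure Bk (φ : F →+* F) (hφ : ∀ t, φ t = t ^ 2) (hq : ∀ t : F, (t ^ 2) ^ 2 = t)
    (π : Matrix.SpecialLinearGroup (Fin 3) F →* YY F) : Prop where
  p01 : ∀ t : Fx φ 2, π (tv01 (t : F)) = Q3 hφ hq (up t)
  p10 : ∀ t : Fx φ 2, π (tv10 (t : F)) = Q3 hφ hq (lo t)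
  p12 : ∀ t : Fx φ 2, π (tv12 (t : F)) = Q2 hφ hq (up (-t))
  p21 : ∀ t : Fx φ 2, π (tv21 (t : F)) = Q2 hφ hq (lo (-t))
  ker : π.ker ≤ center (Matrix.SpecialLinearGroup (Fin 3) F)

include hF in
theorem exists_bk : ∃ π : Matrix.SpecialLinearGroup (Fin 3) F →* YY F, Bk φ hφ (hqq hF) π := by
  obtain ⟨π, h1, h2, h3, h4, h5⟩ := Cfsg.Agent.H287.F4.Hom.exists_pi hφ (hqq hF)
  exact ⟨π, h1, h2, h3, h4, h5⟩

variable {hq : ∀ t : F, (t ^ 2) ^ 2 = t} {π : Matrix.SpecialLinearGroup (Fin 3) F →* YY F} (B : Bk φ hφ hq π)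

include B

theorem tv01_mem (c : F) : π (tv01 c) ∈ X φ (sr 3) := by
  have e := B.p01 ⟨c, Hom.mem_two hφ hq c⟩
  rw [show π (tv01 c) = _ from e]
  exact (Cfsg.Agent.H958.TS.TwCommon.coordP hφ hq).mem_up 3 _

theorem tv10_mem (c : F) : π (tv10 c) ∈ X φ (-sr 3) := by
  have e := B.p10 ⟨c, Hom.mem_two hφ hq c⟩
  rw [show π (tv10 c) = _ from e]
  exact (Cfsg.Agent.H958.TS.TwCommon.coordP hφ hq).mem_lo 3 _

theorem tv12_mem (c : F) : π (tv12 c) ∈ X φ (sr 2) := by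
  have e := B.p12 ⟨c, Hom.mem_two hφ hq c⟩
  rw [show π (tv12 c) = _ from e]
  exact (Cfsg.Agent.H958.TS.TwCommon.coordP hφ hq).mem_up 2 _

theorem tv21_mem (c : F) : π (tv21 c) ∈ X φ (-sr 2) := by
  have e := B.p21 ⟨c, Hom.mem_two hφ hq c⟩
  rw [show π (tv21 c) = _ from e]
  exact (Cfsg.Agent.H958.TS.TwCommon.coordP hφ hq).mem_lo 2 _

theorem exists_tv01 {x : YY F} (hx : x ∈ X φ (sr 3)) : ∃ c, π (tv01 c) = x := by
  obtain ⟨a, rfl⟩ := (Cfsg.Agent.H958.TS.TwCommon.coordP hφ hq).exists_up (i := 3) hx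
  exact ⟨_, B.p01 a⟩

theorem exists_tv10 {x : YY F} (hx : x ∈ X φ (-sr 3)) : ∃ c, π (tv10 c) = x := by
  obtain ⟨a, rfl⟩ := (Cfsg.Agent.H958.TS.TwCommon.coordP hφ hq).exists_lo (i := 3) hx
  exact ⟨_, B.p10 a⟩

theorem exists_tv12 {x : YY F} (hx : x ∈ X φ (sr 2)) : ∃ c, π (tv12 c) = x := by
  have h1 : ∃ a : Fx φ 2, Q2 hφ hq (up a) = x := (Cfsg.Agent.H958.TS.TwCommon.coordP hφ hq).exists_up (i := 2) hx
  obtain ⟨a, rfl⟩ := h1
  refine ⟨_, (B.p12 (-a)).trans ?_⟩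
  rw [neg_neg]

theorem exists_tv21 {x : YY F} (hx : x ∈ X φ (-sr 2)) : ∃ c, π (tv21 c) = x := by
  have h1 : ∃ a : Fx φ 2, Q2 hφ hq (lo a) = x := (Cfsg.Agent.H958.TS.TwCommon.coordP hφ hq).exists_lo (i := 2) hx
  obtain ⟨a, rfl⟩ := h1
  refine ⟨_, (B.p21 (-a)).trans ?_⟩
  rw [neg_neg]

/-- `hel` of one is trivial -/
theorem dg3_a1 (a : Fˣ) (b : (Fx φ 2)ˣ) (hab : ((b : Fx φ 2) : F) = a) : π (dg3 a 1) = Q3 hφ hq (dg b) := by
  have e1 : (hel (show (1 : Fin 3) ≠ 2 by decide) (1 : Fˣ) : Matrix.SpecialLinearGroup (Fin 3) F) = 1 := by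
    unfold hel
    rw [inv_one, Units.val_one]
    have h1 : ∀ c : F, tv12 (-c) = (tv12 c)⁻¹ := fun c => by
      rw [eq_inv_iff_mul_eq_one]
      apply Subtype.ext
      change (1 + Matrix.single 1 2 (-c)) * (1 + Matrix.single 1 2 c) = 1
      ext i j
      fin_cases i <;> fin_cases j <;> simp [Matrix.mul_apply, Fin.sum_univ_three, Matrix.single]
    have h2 : ∀ c : F, tv21 (-c) = (tv21 c)⁻¹ := fun c => by
      rw [eq_inv_iff_mul_eq_one]
      apply Subtype.ext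
      change (1 + Matrix.single 2 1 (-c)) * (1 + Matrix.single 2 1 c) = 1
      ext i j
      fin_cases i <;> fin_cases j <;> simp [Matrix.mul_apply, Fin.sum_univ_three, Matrix.single]
    rw [h1 1]
    have h3 : Matrix.SpecialLinearGroup.transvection (show (1 : Fin 3) ≠ 2 by decide).symm (-(1 : F)) =
        (Matrix.SpecialLinearGroup.transvection (show (1 : Fin 3) ≠ 2 by decide).symm (1 : F))⁻¹ := h2 1
    rw [h3]
    group
  have e2 : dg3 a 1 = hel (show (0 : Fin 3) ≠ 1 by decide) a := by rw [dg3_eq, e1, mul_one]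
  rw [e2]
  unfold hel
  have hb : ((b⁻¹ : (Fx φ 2)ˣ) : Fx φ 2) = ((b : Fx φ 2))⁻¹ := Units.val_inv_eq_inv_val b
  have f1 : π (tv01 (a : F)) = Q3 hφ hq (up (b : Fx φ 2)) := by rw [← hab]; exact B.p01 b
  have f2 : π (Matrix.SpecialLinearGroup.transvection (show (0 : Fin 3) ≠ 1 by decide).symm (-((a⁻¹ : Fˣ) : F))) =
      Q3 hφ hq (lo (-((b⁻¹ : (Fx φ 2)ˣ) : Fx φ 2))) := by
    have h1 := B.p10 (-((b⁻¹ : (Fx φ 2)ˣ) : Fx φ 2))
    rw [← h1]
    congr 2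
    rw [hb, Units.val_inv_eq_inv_val, ← hab]
    rfl
  have f3 : π (tv01 (-1 : F)) = Q3 hφ hq (up (-1)) := B.p01 (-1)
  have f4 : π (Matrix.SpecialLinearGroup.transvection (show (0 : Fin 3) ≠ 1 by decide).symm (1 : F)) =
      Q3 hφ hq (lo 1) := B.p10 1
  rw [map_mul, map_mul, map_mul, map_mul, map_mul, f1, f2, f3, f4, ← map_mul, ← map_mul, ← map_mul, ← map_mul,
    ← map_mul]
  congr 1
  have e5 : (Cfsg.Agent.OddHalf.NI.Mult.wn : Matrix.SpecialLinearGroup (Fin 2) (Fx φ 2)) = nn 1 := rfl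
  rw [Cfsg.Agent.OddHalf.NI.Mult.dg_eq, e5, Cfsg.Agent.OddHalf.NI.Mult.nn_inv, Cfsg.Agent.OddHalf.NI.Mult.nn_eq,
    Cfsg.Agent.OddHalf.NI.Mult.nn_eq]
  have e6 : (((-1 : (Fx φ 2)ˣ)⁻¹ : (Fx φ 2)ˣ) : Fx φ 2) = -1 := by
    rw [Units.val_inv_eq_inv_val, Units.val_neg, Units.val_one, inv_neg, inv_one]
  rw [e6, Units.val_neg, Units.val_one, neg_neg]

theorem dg3_1b (a : Fˣ) (b : (Fx φ 2)ˣ) (hab : ((b : Fx φ 2) : F) = a) (h2 : (2 : F) = 0) :
    π (dg3 1 a) = Q2 hφ hq (dg b) := by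
  have hneg : ∀ t : Fx φ 2, -t = t := fun t => by
    have h3 : (2 : Fx φ 2) = 0 := Subtype.ext h2
    rw [neg_eq_iff_add_eq_zero, ← two_mul, h3, zero_mul]
  have hnegF : ∀ t : F, -t = t := fun t => by
    rw [neg_eq_iff_add_eq_zero, ← two_mul, h2, zero_mul]
  have e1 : (hel (show (0 : Fin 3) ≠ 1 by decide) (1 : Fˣ) : Matrix.SpecialLinearGroup (Fin 3) F) = 1 := by
    unfold hel
    rw [inv_one, Units.val_one]
    have h1 : ∀ c : F, tv01 (-c) = (tv01 c)⁻¹ := fun c => by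
      rw [eq_inv_iff_mul_eq_one]
      apply Subtype.ext
      change (1 + Matrix.single 0 1 (-c)) * (1 + Matrix.single 0 1 c) = 1
      ext i j
      fin_cases i <;> fin_cases j <;> simp [Matrix.mul_apply, Fin.sum_univ_three, Matrix.single]
    have h2 : ∀ c : F, tv10 (-c) = (tv10 c)⁻¹ := fun c => by
      rw [eq_inv_iff_mul_eq_one]
      apply Subtype.ext
      change (1 + Matrix.single 1 0 (-c)) * (1 + Matrix.single 1 0 c) = 1
      ext i j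
      fin_cases i <;> fin_cases j <;> simp [Matrix.mul_apply, Fin.sum_univ_three, Matrix.single]
    rw [h1 1]
    have h3 : Matrix.SpecialLinearGroup.transvection (show (0 : Fin 3) ≠ 1 by decide).symm (-(1 : F)) =
        (Matrix.SpecialLinearGroup.transvection (show (0 : Fin 3) ≠ 1 by decide).symm (1 : F))⁻¹ := h2 1
    rw [h3]
    group
  have e2 : dg3 1 a = hel (show (1 : Fin 3) ≠ 2 by decide) a := by rw [dg3_eq, e1, one_mul]
  rw [e2]
  unfold hel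
  have hb : ((b⁻¹ : (Fx φ 2)ˣ) : Fx φ 2) = ((b : Fx φ 2))⁻¹ := Units.val_inv_eq_inv_val b
  have f1 : π (tv12 (a : F)) = Q2 hφ hq (up (b : Fx φ 2)) := by
    rw [← hab, B.p12, hneg]
  have f2 : π (Matrix.SpecialLinearGroup.transvection (show (1 : Fin 3) ≠ 2 by decide).symm (-((a⁻¹ : Fˣ) : F))) =
      Q2 hφ hq (lo (-((b⁻¹ : (Fx φ 2)ˣ) : Fx φ 2))) := by
    have h1 := B.p21 ((b⁻¹ : (Fx φ 2)ˣ) : Fx φ 2)
    rw [← h1, hnegF]
    congr 2
    rw [hb, Units.val_inv_eq_inv_val, ← hab]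
    rfl
  have f3 : π (tv12 (-1 : F)) = Q2 hφ hq (up (-1)) := by
    rw [hnegF]
    exact B.p12 1
  have f4 : π (Matrix.SpecialLinearGroup.transvection (show (1 : Fin 3) ≠ 2 by decide).symm (1 : F)) =
      Q2 hφ hq (lo 1) := by
    have := B.p21 1
    rwa [hneg] at this
  rw [map_mul, map_mul, map_mul, map_mul, map_mul, f1, f2, f3, f4, ← map_mul, ← map_mul, ← map_mul, ← map_mul,
    ← map_mul]
  congr 1
  have e5 : (Cfsg.Agent.OddHalf.NI.Mult.wn : Matrix.SpecialLinearGroup (Fin 2) (Fx φ 2)) = nn 1 := rfl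
  rw [Cfsg.Agent.OddHalf.NI.Mult.dg_eq, e5, Cfsg.Agent.OddHalf.NI.Mult.nn_inv, Cfsg.Agent.OddHalf.NI.Mult.nn_eq,
    Cfsg.Agent.OddHalf.NI.Mult.nn_eq]
  have e6 : (((-1 : (Fx φ 2)ˣ)⁻¹ : (Fx φ 2)ˣ) : Fx φ 2) = -1 := by
    rw [Units.val_inv_eq_inv_val, Units.val_neg, Units.val_one, inv_neg, inv_one]
  rw [e6, Units.val_neg, Units.val_one, neg_neg]

/-- the diagonal subgroup of `SL₃` -/
def dgH (F : Type u) [Field F] : Fˣ × Fˣ →* Matrix.SpecialLinearGroup (Fin 3) F where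
  toFun x := dg3 x.1 x.2
  map_one' := by
    apply Subtype.ext
    change Matrix.diagonal _ = 1
    rw [← Matrix.diagonal_one]
    congr 1
    funext i
    fin_cases i <;> simp
  map_mul' x y := dg3_mul _ _ _ _

omit B in
include hF hφ in
theorem unit_one (b : (Fx φ 1)ˣ) : b = 1 := by
  have h1 := Cfsg.Agent.H928.Ore.TwFin.card_Fx (by norm_num : 1 < 2) (by rw [hF]; norm_num) hφ
  have h2 : Nat.card (Fx φ 1)ˣ = 1 := by rw [Nat.card_units, h1]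
  have := (Nat.card_eq_one_iff_unique.1 h2).1
  exact Subsingleton.elim _ _

include hF in
/-- **The torus.** -/
theorem T_le : RGDTwE6.T F 2 ≤ (dgH F).range.map π := by
  have : CharP F 2 := charTwo hF
  have : Fact (Nat.Prime 2) := ⟨Nat.prime_two⟩
  have : Finite CoxeterMatrix.F₄.Group :=
    Cfsg.Agent.Nodes.RGDFold.finite_W (hp := RGDTwE6.hp) cs RGDTwE6.isCartan RGDTwE6.foldData
  have h2 : (2 : F) = 0 := (Cfsg.Agent.H287.F4.Mat.exists_omega hF).2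
  rw [Cfsg.Agent.OddHalf.NI.Mult.torus (RGDTwE6.rgd cs hφ hq 2) (Cfsg.Agent.H958.TS.TwCommon.coordP hφ hq)
    (RGDTwE6.G1_eq_top cs hφ hq)]
  refine iSup_le fun i => ?_
  rintro _ ⟨t, rfl⟩
  fin_cases i
  · have e : t = 1 := unit_one hF hφ t
    rw [e, map_one]
    exact one_mem _
  · have e : t = 1 := unit_one hF hφ t
    rw [e, map_one]
    exact one_mem _
  · refine ⟨dg3 1 (Units.map (Fx φ 2).subtype.toMonoidHom t), ⟨(1, _), rfl⟩, ?_⟩
    exact dg3_1b hφ B _ t rfl h2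
  · refine ⟨dg3 (Units.map (Fx φ 2).subtype.toMonoidHom t) 1, ⟨(_, 1), rfl⟩, ?_⟩
    exact dg3_a1 hφ B _ t rfl

end Cfsg.Agent.H287.F4.Blk
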