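import Cfsg.Agent.H287.F4.Par

/-!
# `²E₆(2)`: an element of order seven (S2491, row F4, E7, part D)

* `exists_d0` : the product of root elements of the nodes `2`, `3` and its image in `E₆(4)`.
-/

set_option autoImplicit false
set_option linter.unusedSectionVars false

namespace Cfsg.Agent.H287.F4.DSeven

open CoxeterSystem Cfsg.Agent.ChevalleyStructure.CoxeterGeom Cfsg.Agent.Tits.Roots Cfsg.Agent.Tits.Core
  Cfsg.Agent.Nodes Cfsg.Agent.Nodes.Reps Cfsg.Agent.Nodes.BNOf Cfsg.Agent.Nodes.RGDLib Cfsg.Agent.Nodes.Bruhat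
  Cfsg.Agent.Nodes.OppDec Cfsg.Agent.Nodes.LeviDec Cfsg.Agent.Nodes.StabComb
open Cfsg.Lie Subgroup
open Cfsg.Agent.ChevalleyStructure Cfsg.Agent.ChevalleyStructure.Elts Cfsg.Agent.Nodes.RGDChev
  Cfsg.Agent.KFacts.RgdChevCoord Cfsg.Agent.H335.Sr
open Cfsg.Agent.H928.Ore.TwE
open Cfsg.Agent.H231.QF (cs X V Lv P j1 j2 j3 j4 In Out CR Sm)
open Cfsg.Agent.Nodes.RGDFoldSL (Fx mem_Fx)
open Cfsg.Agent.H231.QS.TwCen (Q0 Q1 Q2 Q3)
open Cfsg.Agent.OddHalf.NI.Mult (up lo)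
open Cfsg.Agent.H164.F4.OutV (charTwo hqq gg_top)
open Cfsg.Agent.H287.F4.Hom Cfsg.Agent.H783.ExoX2 Cfsg.Agent.H343 Cfsg.Agent.ETable.Exc

universe u

/-- the group -/
local notation "YY" => Cfsg.Agent.H231.QF.KK

variable {F : Type u} [Field F] [Fintype F] (hF : Fintype.card F = 4) {φ : F →+* F} (hφ : ∀ t, φ t = t ^ 2)

/-- the root elements of the folded group -/
noncomputable def y (F : Type u) [Field F] (r s : ℕ) : ↥(chevE6.group F) :=
  xc RGDTwE6.hp (vec chevE6 6 r) (1 : F) * xc RGDTwE6.hp (vec chevE6 6 s) (1 : F)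

theorem coe_y {r s : ℕ} (hr : r < 72) (hs : s < 72) : ((y F r s : ↥(chevE6.group F)) : GL chevE6.Idx F) =
    xG inList_E6 r (1 : F) * xG inList_E6 s (1 : F) := by
  unfold y
  rw [Subgroup.coe_mul, coe_xc RGDTwE6.hp hr, coe_xc RGDTwE6.hp hs]

include hF hφ

theorem exists_d0 : ∃ d0 : YY F, d0 ∈ P φ j2 ∧
    inc F 2 d0 = y F 42 37 * y F 56 36 * y F 29 34 * y F 15 35 * y F 56 36 := by
  have h2 : (2 : F) = 0 := (Cfsg.Agent.H287.F4.Mat.exists_omega hF).2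
  have hneg : (-1 : F) = 1 := by
    rw [neg_eq_iff_add_eq_zero, ← h2]
    norm_num
  have hneg' : (-1 : Fx φ 2) = 1 := Subtype.ext hneg
  have C := Cfsg.Agent.H958.TS.TwCommon.coordP hφ (hqq hF)
  have m2 : (2 : Fin 4) ∈ j2 := show (2 : Fin 4) ≠ 1 by decide
  have m3 : (3 : Fin 4) ∈ j2 := show (3 : Fin 4) ≠ 1 by decide
  have u3 : Q3 hφ (hqq hF) (up 1) ∈ P φ j2 := Par.X_le_P (C.mem_up 3 _)
  have u2 : Q2 hφ (hqq hF) (up 1) ∈ P φ j2 := Par.X_le_P (C.mem_up 2 _)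
  have l3 : Q3 hφ (hqq hF) (lo 1) ∈ P φ j2 := LJ_le_PJ (Par.Xn_le_L m3 (mem_sup_right (C.mem_lo 3 _)))
  have l2 : Q2 hφ (hqq hF) (lo 1) ∈ P φ j2 := LJ_le_PJ (Par.Xn_le_L m2 (mem_sup_right (C.mem_lo 2 _)))
  have e3 : inc F 2 (Q3 hφ (hqq hF) (up 1)) = y F 56 36 := by
    apply Subtype.ext
    rw [coe_y (by decide) (by decide)]
    refine (e01 hφ (hqq hF) 1).symm.trans ?_
    rw [xx01, show ((1 : Fx φ 2) : F) = 1 from rfl, map_one]
  have e3' : inc F 2 (Q3 hφ (hqq hF) (lo 1)) = y F 15 35 := by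
    apply Subtype.ext
    rw [coe_y (by decide) (by decide)]
    refine (e10 hφ (hqq hF) 1).symm.trans ?_
    rw [xx10, show ((1 : Fx φ 2) : F) = 1 from rfl, map_one]
  have e2 : inc F 2 (Q2 hφ (hqq hF) (up 1)) = y F 42 37 := by
    apply Subtype.ext
    rw [coe_y (by decide) (by decide)]
    have h3 := (e12 hφ (hqq hF) 1).symm
    rw [hneg'] at h3
    refine h3.trans ?_
    rw [xx12, show ((1 : Fx φ 2) : F) = 1 from rfl, hneg, map_one]
  have e2' : inc F 2 (Q2 hφ (hqq hF) (lo 1)) = y F 29 34 := by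
    apply Subtype.ext
    rw [coe_y (by decide) (by decide)]
    have h3 := (e21 hφ (hqq hF) 1).symm
    rw [hneg'] at h3
    refine h3.trans ?_
    rw [xx21, show ((1 : Fx φ 2) : F) = 1 from rfl, hneg, map_one]
  refine ⟨Q2 hφ (hqq hF) (up 1) * Q3 hφ (hqq hF) (up 1) * Q2 hφ (hqq hF) (lo 1) * Q3 hφ (hqq hF) (lo 1) *
    Q3 hφ (hqq hF) (up 1), mul_mem (mul_mem (mul_mem (mul_mem u2 u3) l2) l3) u3, ?_⟩
  rw [map_mul, map_mul, map_mul, map_mul, e3, e3', e2, e2']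

end Cfsg.Agent.H287.F4.DSeven
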