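import Cfsg.Agent.Nodes.ClsPair
import Cfsg.Agent.Nodes.CenVV
import Cfsg.Agent.Nodes.LeviDec
import Cfsg.Agent.OddHalf.NI.Mult.Torus

/-!
Root group data: generation of Levi subgroups, orthogonal nodes, parabolic subgroups acting on the points of a block
(S2491, 2E6(2), box PAR).
-/

set_option autoImplicit false
set_option linter.unusedSectionVars false

namespace Cfsg.Agent.H287.F4.Gen

open CoxeterSystem Cfsg.Agent.ChevalleyStructure.CoxeterGeom Cfsg.Agent.Tits.Roots Cfsg.Agent.Tits.Core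
  Cfsg.Agent.Tits.RootComb Cfsg.Agent.Nodes Cfsg.Agent.Nodes.Comb Cfsg.Agent.Nodes.Reps Cfsg.Agent.Nodes.BNOf
  Cfsg.Agent.Nodes.RGDLib Cfsg.Agent.Nodes.Bruhat Cfsg.Agent.Nodes.OppDec Cfsg.Agent.Nodes.LeviDec
  Cfsg.Agent.Nodes.StabComb Cfsg.Agent.Tits.Exchange
open Cfsg.Agent.OddHalf.NI.Mult (KK)
open Cfsg.Agent.Nodes.CenVV (comm_of_btwn)
open Cfsg.Agent.Nodes.ClsPair (eq_of_supp_two)
open scoped commutatorElement

variable {I W Y : Type*} [Fintype I] [DecidableEq I] [Group W] [Group Y] {M : CoxeterMatrix I}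
  {cs : CoxeterSystem M W} {A : I → I → ℤ} {h : IsCartan M A} {p : ℕ} {T : Subgroup Y} {n : I → Y}
  {X : (I → ℤ) → Subgroup Y} (R : RGD cs h p T n X)

include R

theorem n_mem {H : Subgroup Y} (hT : T ≤ H) {i : I} (hp : X (sr i) ≤ H) (hn : X (-sr i) ≤ H) : n i ∈ H := by
  obtain ⟨u, hu, hu1⟩ := exists_ne_one R i
  have h1 : n i * u * (n i)⁻¹ ∈ X (-sr i) := by
    have := R.conj_mem (rp_simple cs R.nsys i) (isRoot_sr cs h i) hu
    rwa [rep_simple_sr] at this
  have h2 : n i * u * (n i)⁻¹ ≠ 1 := by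
    intro h3
    exact hu1 (mul_eq_left.1 (mul_inv_eq_one.1 h3))
  obtain ⟨a, ha, t, ht, b, hb, e⟩ := R.rk1 i _ h1 h2
  have h3 : n i = (a * t)⁻¹ * (n i * u * (n i)⁻¹) * b⁻¹ := by
    conv_rhs => rw [e]
    group
  rw [h3]
  exact mul_mem (mul_mem (inv_mem (mul_mem (hp ha) (hT ht))) (hn h1)) (inv_mem (hp hb))

theorem rp_mem {H : Subgroup Y} (hT : T ≤ H) {J : Set I} (hJ : ∀ i ∈ J, n i ∈ H) {w : W} (hw : w ∈ WJ cs J) :
    ∀ {g : Y}, Rp cs R.nsys w g → g ∈ H := by
  obtain ⟨ω, hω, rfl⟩ := exists_word_of_mem_WJ cs hw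
  clear hw
  induction ω with
  | nil =>
    intro g hg
    rw [wordProd_nil] at hg
    exact hT hg.mem_of_one
  | cons i ω ih =>
    intro g hg
    have hω' : ∀ j ∈ ω, j ∈ J := fun j hj => hω j (by simp [hj])
    rw [wordProd_cons] at hg
    have h1 : Rp cs R.nsys (cs.wordProd ω) ((n i)⁻¹ * g) := by
      have := (rp_simple cs R.nsys i).inv.mul hg
      rwa [inv_mul_cancel_left] at this
    have h2 := ih hω' h1
    have h3 : g = n i * ((n i)⁻¹ * g) := by group
    rw [h3]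
    exact mul_mem (hJ i (hω i (by simp))) h2

/-- **Generation of the Levi subgroup by the fundamental root groups.** -/
theorem LJ_le [Finite W] {H : Subgroup Y} {J : Set I} (hT : T ≤ H) (hp : ∀ i ∈ J, X (sr i) ≤ H)
    (hn : ∀ i ∈ J, X (-sr i) ≤ H) : LJ cs h T X J ≤ H := by
  have hN : ∀ i ∈ J, n i ∈ H := fun i hi => n_mem R hT (hp i hi) (hn i hi)
  refine sup_le hT (RGD.Sup_le fun x hx => ?_)
  obtain ⟨w, hw, j, hj, rfl⟩ := exists_of_mem_RootsJ hx
  obtain ⟨g, hg⟩ := exists_rp cs R.nsys w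
  have hgH := rp_mem R hT hN hw hg
  rw [← R.conj_rp hg (isRoot_sr cs h j)]
  intro y hy
  rw [mem_cj] at hy
  have e : y = g * (g⁻¹ * y * g) * g⁻¹ := by group
  rw [e]
  exact mul_mem (mul_mem hgH (hp j hj hy)) (inv_mem hgH)

/-- root groups of orthogonal nodes commute -/
theorem comm_two [Finite W] {i j : I} (hij : i ≠ j) (h2 : M i j = 2) :
    ∀ a ∈ KK X (sr i), ∀ b ∈ KK X (sr j), a * b = b * a := by
  have key : ∀ x y : I → ℤ, (x = sr i ∨ x = -sr i) → (y = sr j ∨ y = -sr j) → ∀ a ∈ X x, ∀ b ∈ X y, a * b = b * a := by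
    intro x y hx hy a ha b hb
    have hxr : IsRoot cs h x := by
      rcases hx with rfl | rfl
      · exact isRoot_sr cs h i
      · exact (isRoot_sr cs h i).neg
    have hyr : IsRoot cs h y := by
      rcases hy with rfl | rfl
      · exact isRoot_sr cs h j
      · exact (isRoot_sr cs h j).neg
    have hxi : x i ≠ 0 ∧ x j = 0 ∧ ∀ k, k ≠ i → x k = 0 := by
      rcases hx with rfl | rfl <;> simp [sr, hij.symm] <;> intro k hk <;> simp [hk]
    have hyj : y j ≠ 0 ∧ y i = 0 ∧ ∀ k, k ≠ j → y k = 0 := by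
      rcases hy with rfl | rfl <;> simp [sr, hij] <;> intro k hk <;> simp [hk]
    have : Fintype W := Fintype.ofFinite W
    refine comm_of_btwn R hxr hyr ?_ ?_ ?_ ha hb
    · rintro rfl
      exact hxi.1 hyj.2.1
    · intro e
      apply hxi.1
      rw [e, Pi.neg_apply, hyj.2.1, neg_zero]
    · rintro w ⟨hw, m, a', b', hm, ha', hb', e⟩
      have hs : Supp i j w := by
        intro k hki hkj
        have := congrFun e k
        simp only [Pi.smul_apply, Pi.add_apply, smul_eq_mul] at this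
        rw [hxi.2.2 k hki, hyj.2.2 k hkj] at this
        simp only [mul_zero, add_zero, mul_eq_zero] at this
        exact this.resolve_left hm.ne'
      have h1 : w i ≠ 0 := by
        intro h0
        have := congrFun e i
        simp only [Pi.smul_apply, Pi.add_apply, smul_eq_mul] at this
        rw [h0, hyj.2.1] at this
        simp only [mul_zero, add_zero, zero_eq_mul] at this
        rcases this with h3 | h3
        · exact ha'.ne' h3
        · exact hxi.1 h3
      have h3 : w j ≠ 0 := by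
        intro h0
        have := congrFun e j
        simp only [Pi.smul_apply, Pi.add_apply, smul_eq_mul] at this
        rw [h0, hxi.2.1] at this
        simp only [mul_zero, zero_add, zero_eq_mul] at this
        rcases this with h3 | h3
        · exact hb'.ne' h3
        · exact hyj.1 h3
      obtain ⟨c, hc, hwc⟩ := eq_of_supp_two hij h2 hw hs
      rcases hc with rfl | rfl
      · apply h3
        rcases hwc with rfl | rfl <;> simp [sr, hij.symm]
      · apply h1
        rcases hwc with rfl | rfl <;> simp [sr, hij]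
  intro a ha b hb
  have h1 : KK X (sr i) ≤ Subgroup.centralizer (KK X (sr j) : Set Y) := by
    have h3 : ∀ x, (x = sr i ∨ x = -sr i) → KK X (sr j) ≤ Subgroup.centralizer (X x : Set Y) := by
      intro x hx
      unfold KK
      refine sup_le ?_ ?_
      · intro y hy
        rw [Subgroup.mem_centralizer_iff]
        exact fun z hz => key x _ hx (Or.inl rfl) z hz y hy
      · intro y hy
        rw [Subgroup.mem_centralizer_iff]
        exact fun z hz => key x _ hx (Or.inr rfl) z hz y hy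
    unfold KK
    exact sup_le (Subgroup.le_centralizer_iff.1 (h3 _ (Or.inl rfl))) (Subgroup.le_centralizer_iff.1 (h3 _ (Or.inr rfl)))
  have h3 := h1 ha
  rw [Subgroup.mem_centralizer_iff] at h3
  exact (h3 b hb).symm

/-! ### Blocks -/

section

variable {J J0 J1 : Set I} {K0 S : Subgroup Y}

theorem S_norm (hSL : S ≤ LJ cs h T X J) : S ≤ Subgroup.normalizer (VJ cs h X J : Set Y) :=
  le_trans hSL (LJ_le_normalizer_VJ R J)

/-- `P_J = S K₀ V_J` -/
theorem frame [Finite W] (hJ : ∀ i ∈ J, i ∈ J0 ∨ i ∈ J1) (hT : T ≤ S) (h0 : ∀ i ∈ J0, KK X (sr i) ≤ K0)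
    (h1 : ∀ i ∈ J1, KK X (sr i) ≤ S) (hn : S ≤ Subgroup.normalizer (K0 : Set Y)) {g : Y} (hg : g ∈ PJ cs h T X J) :
    ∃ s ∈ S, ∃ k ∈ K0, ∃ v ∈ VJ cs h X J, g = s * k * v := by
  obtain ⟨l, hl, v, hv, rfl⟩ := (mem_PJ R).1 hg
  have h2 : LJ cs h T X J ≤ S ⊔ K0 := by
    refine LJ_le R (le_trans hT le_sup_left) (fun i hi => ?_) (fun i hi => ?_)
    · rcases hJ i hi with h3 | h3
      · exact le_trans (le_trans le_sup_left (h0 i h3)) le_sup_right
      · exact le_trans (le_trans le_sup_left (h1 i h3)) le_sup_left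
    · rcases hJ i hi with h3 | h3
      · exact le_trans (le_trans le_sup_right (h0 i h3)) le_sup_right
      · exact le_trans (le_trans le_sup_right (h1 i h3)) le_sup_left
  have h3 : l ∈ ((S ⊔ K0 : Subgroup Y) : Set Y) := h2 hl
  rw [Subgroup.coe_mul_of_left_le_normalizer_right _ _ hn, Set.mem_mul] at h3
  obtain ⟨s, hs, k, hk, e⟩ := h3
  exact ⟨s, hs, k, hk, v, hv, by rw [← e]⟩

omit R [Fintype I] [DecidableEq I] [Group W] in
/-- powers of `s ν` -/
theorem pow_sn {N : Subgroup Y} {s ν : Y} (hs : s ∈ Subgroup.normalizer (N : Set Y)) (hν : ν ∈ N) (m : ℕ) :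
    ∃ μ ∈ N, (s * ν) ^ m = s ^ m * μ := by
  induction m with
  | zero => exact ⟨1, one_mem _, by rw [pow_zero, pow_zero, mul_one]⟩
  | succ m ih =>
    obtain ⟨μ, hμ, e⟩ := ih
    refine ⟨s⁻¹ * μ * s * ν, mul_mem ?_ hν, ?_⟩
    · have h1 := (Subgroup.mem_normalizer_iff.1 (inv_mem hs) μ).1 hμ
      rwa [inv_inv] at h1
    · rw [pow_succ, e, pow_succ]
      group

/-- elements of prime order of `K₀ V_J` -/
theorem eq_one_of [Finite W] [hp : Fact p.Prime] (hKL : K0 ≤ LJ cs h T X J) {e : ℕ} (he : ∀ k ∈ K0, k ^ e = 1) {r : ℕ}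
    (hr : r.Prime) (hrp : r ≠ p) (hre : ¬ r ∣ e) {x : Y} (hx : x ∈ K0 ⊔ VJ cs h X J) (hxr : x ^ r = 1) : x = 1 := by
  have hn : K0 ≤ Subgroup.normalizer (VJ cs h X J : Set Y) := le_trans hKL (LJ_le_normalizer_VJ R J)
  have h1 : x ∈ ((K0 ⊔ VJ cs h X J : Subgroup Y) : Set Y) := hx
  rw [Subgroup.coe_mul_of_left_le_normalizer_right _ _ hn, Set.mem_mul] at h1
  obtain ⟨k, hk, v, hv, rfl⟩ := h1
  obtain ⟨μ, hμ, e1⟩ := pow_sn (hn hk) hv e
  rw [he k hk, one_mul] at e1
  have hV : IsPGroup p ↥(VJ cs h X J) := R.isPGroup_of_pos fun x hx => ⟨hx.1, hx.2.1⟩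
  obtain ⟨a, ha⟩ := hV ⟨μ, hμ⟩
  have h2 : μ ^ p ^ a = 1 := by simpa using congrArg Subtype.val ha
  have h3 : (k * v) ^ (e * p ^ a) = 1 := by rw [pow_mul, e1, h2]
  have h4 : orderOf (k * v) ∣ 1 := by
    have hc : Nat.Coprime r (e * p ^ a) :=
      Nat.Coprime.mul_right ((Nat.Prime.coprime_iff_not_dvd hr).2 hre)
        (Nat.Coprime.pow_right a ((Nat.coprime_primes hr hp.out).2 hrp))
    rw [← hc.gcd_eq_one]
    exact Nat.dvd_gcd (orderOf_dvd_of_pow_eq_one hxr) (orderOf_dvd_of_pow_eq_one h3)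
  exact orderOf_eq_one_iff.1 (Nat.dvd_one.1 h4)

end

end Cfsg.Agent.H287.F4.Gen
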