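import Mathlib

/-!
Elements of `SL₂(4)`, `SL₃(4)` (S2491, 2E6(2), box PAR).

* `pow_eq_one` : a matrix of determinant 1 with irreducible characteristic polynomial;
* `eig` : eigenvectors; `sl3`, `sl2` : `D` has an eigenvector or an order divisible by 7, 5.
-/

set_option autoImplicit false

namespace Cfsg.Agent.H287.F4.Mat

open Matrix Polynomial

section

variable {K : Type*} [Field K] [Fintype K]

/-- an irreducible matrix -/
theorem pow_eq_det {n : ℕ} (D : Matrix (Fin n) (Fin n) K) (hirr : Irreducible D.charpoly)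
    {N : ℕ} (hN : (Fintype.card K ^ n - 1) / (Fintype.card K - 1) = N) : D ^ N = Matrix.scalar (Fin n) D.det := by
  classical
  have : Fact (Irreducible D.charpoly) := ⟨hirr⟩
  have hm := D.charpoly_monic
  have hne : D.charpoly ≠ 0 := hm.ne_zero
  let pb := AdjoinRoot.powerBasis hne
  have : Module.Finite K (AdjoinRoot D.charpoly) := pb.finite
  have : Finite (AdjoinRoot D.charpoly) := Module.finite_of_finite K
  have hdim : Module.finrank K (AdjoinRoot D.charpoly) = n := by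
    rw [pb.finrank, AdjoinRoot.powerBasis_dim, D.charpoly_natDegree_eq_dim, Fintype.card_fin]
  have hnorm := FiniteField.algebraMap_norm_eq_pow (K := K) (K' := AdjoinRoot D.charpoly)
    (x := AdjoinRoot.root D.charpoly)
  have hgen : pb.gen = AdjoinRoot.root D.charpoly := AdjoinRoot.powerBasis_gen hne
  have hmin : minpoly K (AdjoinRoot.root D.charpoly) = D.charpoly := by
    rw [← AdjoinRoot.powerBasis_gen hne, AdjoinRoot.minpoly_powerBasis_gen_of_monic hm]
  have h1 : Algebra.norm K (AdjoinRoot.root D.charpoly) = D.det := by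
    have h2 := Algebra.PowerBasis.norm_gen_eq_coeff_zero_minpoly pb
    rw [hgen, hmin] at h2
    rw [h2]
    have h3 : pb.dim = n := by
      rw [AdjoinRoot.powerBasis_dim, D.charpoly_natDegree_eq_dim, Fintype.card_fin]
    rw [h3]
    have h4 := D.det_eq_sign_charpoly_coeff
    rw [Fintype.card_fin] at h4
    exact h4.symm
  rw [h1] at hnorm
  have hcard : Nat.card (AdjoinRoot D.charpoly) = Fintype.card K ^ n := by
    rw [Module.natCard_eq_pow_finrank (K := K), hdim, Nat.card_eq_fintype_card]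
  rw [hcard, Nat.card_eq_fintype_card, hN] at hnorm
  have h5 : AdjoinRoot.mk D.charpoly (X ^ N - C D.det) = 0 := by
    rw [map_sub, map_pow, AdjoinRoot.mk_X, ← hnorm, AdjoinRoot.mk_C]
    exact sub_self _
  obtain ⟨Q, hQ⟩ := AdjoinRoot.mk_eq_zero.1 h5
  have h6 := congrArg (Polynomial.aeval D) hQ
  rw [map_mul, D.aeval_self_charpoly, zero_mul, map_sub, map_pow, aeval_X, aeval_C, sub_eq_zero] at h6
  rw [h6]
  rfl

theorem pow_eq_one {n : ℕ} (D : Matrix (Fin n) (Fin n) K) (hdet : D.det = 1) (hirr : Irreducible D.charpoly)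
    {N : ℕ} (hN : (Fintype.card K ^ n - 1) / (Fintype.card K - 1) = N) : D ^ N = 1 := by
  rw [pow_eq_det D hirr hN, hdet, map_one]

end

section

variable {K : Type*} [Field K]

/-- an eigenvector from a singular matrix -/
theorem eig {n : ℕ} {D : Matrix (Fin n) (Fin n) K} {a : K} (h : (D - Matrix.scalar (Fin n) a).det = 0) :
    ∃ v : Fin n → K, v ≠ 0 ∧ D *ᵥ v = a • v := by
  obtain ⟨v, hv, h1⟩ := Matrix.exists_mulVec_eq_zero_iff.2 h
  refine ⟨v, hv, ?_⟩
  rw [Matrix.sub_mulVec, sub_eq_zero] at h1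
  rw [h1]
  ext i
  simp [Matrix.scalar_apply, Matrix.mulVec_diagonal]

theorem eig_of_root {n : ℕ} {D : Matrix (Fin n) (Fin n) K} {a : K} (h : D.charpoly.IsRoot a) :
    ∃ v : Fin n → K, v ≠ 0 ∧ D *ᵥ v = a • v := by
  refine eig ?_
  rw [IsRoot.def, Matrix.eval_charpoly] at h
  have h1 : D - Matrix.scalar (Fin n) a = -(Matrix.scalar (Fin n) a - D) := by abel
  rw [h1, Matrix.det_neg, h, mul_zero]

variable [Fintype K]

omit [Fintype K] in
/-- no eigenvector: irreducible (dimension 2 or 3) -/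
theorem irr {n : ℕ} (h2 : 2 ≤ n) (h3 : n ≤ 3) {D : Matrix (Fin n) (Fin n) K}
    (h : ¬ ∃ (v : Fin n → K) (a : K), v ≠ 0 ∧ D *ᵥ v = a • v) : Irreducible D.charpoly := by
  have hd : D.charpoly.natDegree = n := by rw [D.charpoly_natDegree_eq_dim, Fintype.card_fin]
  rw [Polynomial.irreducible_iff_roots_eq_zero_of_degree_le_three (by rw [hd]; exact h2) (by rw [hd]; exact h3)]
  rw [Multiset.eq_zero_iff_forall_notMem]
  intro a ha
  rw [Polynomial.mem_roots D.charpoly_monic.ne_zero] at ha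
  obtain ⟨v, hv, h1⟩ := eig_of_root ha
  exact h ⟨v, a, hv, h1⟩

theorem exists_omega (hK : Fintype.card K = 4) : (∃ w : K, w * w + w + 1 = 0) ∧ (2 : K) = 0 := by
  have h2 : (2 : K) = 0 := by
    have h1 : ((Fintype.card K : ℕ) : K) = 0 := Nat.cast_card_eq_zero K
    rw [hK] at h1
    have h3 : (2 : K) * 2 = 0 := by
      have : ((4 : ℕ) : K) = 2 * 2 := by norm_num
      rw [← this]; exact h1
    exact mul_self_eq_zero.1 h3
  refine ⟨?_, h2⟩
  have h1 : ∃ w : K, w ≠ 0 ∧ w ≠ 1 := by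
    by_contra hcon
    push Not at hcon
    have h3 : Fintype.card K ≤ 2 := by
      classical
      have : (Finset.univ : Finset K) ⊆ {0, 1} := by
        intro x _
        by_cases hx : x = 0
        · simp [hx]
        · simp [hcon x hx]
      calc Fintype.card K = (Finset.univ : Finset K).card := rfl
        _ ≤ ({0, 1} : Finset K).card := Finset.card_le_card this
        _ ≤ 2 := Finset.card_le_two
    omega
  obtain ⟨w, hw, hw1⟩ := h1
  refine ⟨w, ?_⟩
  have h3 := FiniteField.pow_card_sub_one_eq_one w hw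
  rw [hK] at h3
  have h4 : (w - 1) * (w * w + w + 1) = 0 := by
    have : (w - 1) * (w * w + w + 1) = w ^ 3 - 1 := by ring
    rw [this, h3, sub_self]
  exact (mul_eq_zero.1 h4).resolve_left (sub_ne_zero.2 hw1)

/-- an element of order 1 or 3 has an eigenvector -/
theorem eig_three (hK : Fintype.card K = 4) {n : ℕ} (hn : 0 < n) {D : Matrix (Fin n) (Fin n) K} (h : D ^ 3 = 1) :
    ∃ (v : Fin n → K) (a : K), v ≠ 0 ∧ D *ᵥ v = a • v := by
  obtain ⟨⟨w, hw⟩, h2⟩ := exists_omega hK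
  have hs : ∀ a : K, Matrix.scalar (Fin n) a * D = D * Matrix.scalar (Fin n) a := fun a =>
    (Matrix.scalar_commute a (fun _ => mul_comm _ _) D).eq
  have h1 : (D - Matrix.scalar (Fin n) 1) * (D - Matrix.scalar (Fin n) w) * (D - Matrix.scalar (Fin n) (w * w)) = 0 := by
    have e1 : Matrix.scalar (Fin n) (1 : K) = 1 := map_one _
    have e2 : Matrix.scalar (Fin n) w * Matrix.scalar (Fin n) (w * w) = 1 := by
      rw [← map_mul, ← e1]
      congr 1
      have : w * (w * w) - 1 = (w - 1) * (w * w + w + 1) := by ring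
      rw [← sub_eq_zero, this, hw, mul_zero]
    have e3 : Matrix.scalar (Fin n) w + Matrix.scalar (Fin n) (w * w) = -1 := by
      rw [← map_add, ← e1, ← map_neg]
      congr 1
      have : w + w * w = (w * w + w + 1) - 1 := by ring
      rw [this, hw, zero_sub]
    have e4 : (D - Matrix.scalar (Fin n) w) * (D - Matrix.scalar (Fin n) (w * w)) = D * D + D + 1 := by
      rw [sub_mul, mul_sub, mul_sub, e2, hs w]
      have : D * D - D * Matrix.scalar (Fin n) (w * w) - (D * Matrix.scalar (Fin n) w - 1) =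
          D * D - D * (Matrix.scalar (Fin n) w + Matrix.scalar (Fin n) (w * w)) + 1 := by
        rw [mul_add]; abel
      rw [this, e3]
      noncomm_ring
    rw [mul_assoc, e4, e1]
    have : (D - 1) * (D * D + D + 1) = D ^ 3 - 1 := by noncomm_ring
    rw [this, h, sub_self]
  have h3 := congrArg Matrix.det h1
  rw [Matrix.det_mul, Matrix.det_mul] at h3
  have : Nonempty (Fin n) := ⟨⟨0, hn⟩⟩
  rw [Matrix.det_zero] at h3
  rcases mul_eq_zero.1 h3 with h4 | h4
  · rcases mul_eq_zero.1 h4 with h5 | h5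
    · obtain ⟨v, hv, h6⟩ := eig h5
      exact ⟨v, _, hv, h6⟩
    · obtain ⟨v, hv, h6⟩ := eig h5
      exact ⟨v, _, hv, h6⟩
  · obtain ⟨v, hv, h6⟩ := eig h4
    exact ⟨v, _, hv, h6⟩

/-- `SL₃(4)` -/
theorem sl3 (hK : Fintype.card K = 4) {D : Matrix (Fin 3) (Fin 3) K} (hD : D.det = 1) :
    (∃ (v : Fin 3 → K) (a : K), v ≠ 0 ∧ D *ᵥ v = a • v) ∨ (D ^ 21 = 1 ∧ D ^ 3 ≠ 1) := by
  by_cases h : ∃ (v : Fin 3 → K) (a : K), v ≠ 0 ∧ D *ᵥ v = a • v
  · exact Or.inl h
  · refine Or.inr ⟨pow_eq_one D hD (irr (by norm_num) le_rfl h) (by rw [hK]; norm_num), fun h3 => h (eig_three hK (by norm_num) h3)⟩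

/-- `GL₂(4)` -/
theorem gl2 (hK : Fintype.card K = 4) {D : Matrix (Fin 2) (Fin 2) K}
    (h : ¬ ∃ (v : Fin 2 → K) (a : K), v ≠ 0 ∧ D *ᵥ v = a • v) : D ^ 5 = Matrix.scalar (Fin 2) D.det :=
  pow_eq_det D (irr le_rfl (by norm_num) h) (by rw [hK]; norm_num)

/-- `SL₂(4)` -/
theorem sl2 (hK : Fintype.card K = 4) {D : Matrix (Fin 2) (Fin 2) K} (hD : D.det = 1) :
    (∃ (v : Fin 2 → K) (a : K), v ≠ 0 ∧ D *ᵥ v = a • v) ∨ (D ^ 5 = 1 ∧ D ≠ 1) := by
  by_cases h : ∃ (v : Fin 2 → K) (a : K), v ≠ 0 ∧ D *ᵥ v = a • v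
  · exact Or.inl h
  · refine Or.inr ⟨pow_eq_one D hD (irr le_rfl (by norm_num) h) (by rw [hK]; norm_num), fun h3 => h ?_⟩
    exact eig_three hK (by norm_num) (by rw [h3, one_pow])

end

end Cfsg.Agent.H287.F4.Mat
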