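import Cfsg.Agent.H287.F4.Blk
import Cfsg.Agent.KFacts.RgdFiltTwAll

/-!
# `²E₆(2)`: elements commuting with an involution (S2491, row F4, box PAR)

* `case_j2` : `g ∈ P₂` is conjugate into `P₄` or `7 ∣ orderOf g`;
* `case_j3` : `g ∈ P₃` is conjugate into `P₄` or `5 ∣ orderOf g`;
* `par` : an element commuting with an involution is conjugate into `P₁` or `P₄`, or `5 ∣ orderOf g` or `7 ∣ orderOf g`.
-/

set_option autoImplicit false
set_option linter.unusedSectionVars false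

namespace Cfsg.Agent.H287.F4.Par

open CoxeterSystem Cfsg.Agent.ChevalleyStructure.CoxeterGeom Cfsg.Agent.Tits.Roots Cfsg.Agent.Tits.Core
  Cfsg.Agent.Nodes Cfsg.Agent.Nodes.Reps Cfsg.Agent.Nodes.BNOf Cfsg.Agent.Nodes.RGDLib Cfsg.Agent.Nodes.Bruhat
  Cfsg.Agent.Nodes.OppDec Cfsg.Agent.Nodes.LeviDec Cfsg.Agent.Nodes.StabComb
open Cfsg.Lie Subgroup
open Cfsg.Agent.H231.QF (cs X V Lv P j1 j2 j3 j4 In Out CR Sm)
open Cfsg.Agent.Nodes.RGDFoldSL (Fx mem_Fx)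
open Cfsg.Agent.H231.QS.TwCen (Q0 Q1 Q2 Q3)
open Cfsg.Agent.OddHalf.NI.Mult (KK up lo dg nn dgHom)
open Cfsg.Agent.H928.Ore.Block (dg3 dg3_eq hel)
open Cfsg.Agent.H164.F4.OutV (charTwo hqq gg_top)
open Cfsg.Agent.H287.F4.Fst Cfsg.Agent.H287.F4.Blk

universe u

/-- the group -/
local notation "YY" => Cfsg.Agent.H231.QF.KK

variable {F : Type u} [Field F] [Fintype F] (hF : Fintype.card F = 4) {φ : F →+* F} (hφ : ∀ t, φ t = t ^ 2)

theorem finW : Finite CoxeterMatrix.F₄.Group :=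
  Cfsg.Agent.Nodes.RGDFold.finite_W (hp := RGDTwE6.hp) cs RGDTwE6.isCartan RGDTwE6.foldData

include hF hφ

theorem rg : RGD cs RGDTwE6.isCartan 2 (RGDTwE6.T F 2) (RGDTwE6.nn hφ) (X φ) := by
  have : CharP F 2 := charTwo hF
  have : Fact (Nat.Prime 2) := ⟨Nat.prime_two⟩
  exact RGDTwE6.rgd cs hφ (hqq hF) 2

omit hF hφ [Fintype F] in
theorem X_le_P {i : Fin 4} {J : Set (Fin 4)} : X φ (sr i) ≤ P φ J :=
  le_trans (RGD.X_le_B (isRoot_sr cs RGDTwE6.isCartan i) (sr_nonneg i)) B_le_PJ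

omit hF hφ [Fintype F] in
theorem Xn_le_L {i : Fin 4} {J : Set (Fin 4)} (hi : i ∈ J) : KK (X φ) (sr i) ≤ Lv φ J := by
  have hri : sr i ∈ RootsJ cs RGDTwE6.isCartan J := PosJ_subset J (sr_mem_PosJ hi)
  exact sup_le (X_le_LJ hri) (X_le_LJ (RootsJ.neg hri))

omit hF hφ [Fintype F] in
theorem PJ_mono {J J' : Set (Fin 4)} (hJ : J ⊆ J') : P φ J ≤ P φ J' :=
  sup_le (le_trans (LJ_mono hJ) LJ_le_PJ) (le_trans (VJ_le_B J) B_le_PJ)

omit hF hφ [Fintype F] in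
theorem norm_of_comm {K0 : Subgroup (YY F)} {a : YY F} (h : ∀ k ∈ K0, a * k = k * a) :
    a ∈ Subgroup.normalizer (K0 : Set (YY F)) := by
  rw [Subgroup.mem_normalizer_iff]
  intro k
  constructor
  · intro hk
    rw [h k hk, mul_assoc, mul_inv_cancel, mul_one]
    exact hk
  · intro hk
    have h1 := h _ hk
    have h2 : k = a⁻¹ * (a * k * a⁻¹) * a := by group
    have h3 : a⁻¹ * (a * k * a⁻¹) * a = a * k * a⁻¹ := by
      rw [mul_assoc, ← h1, inv_mul_cancel_left]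
    rw [h2, h3]
    exact hk

omit hφ in
theorem card_sl2 (hφ : ∀ t, φ t = t ^ 2) (A : Matrix.SpecialLinearGroup (Fin 2) (Fx φ 1)) : A ^ 6 = 1 := by
  have h1 := Cfsg.Agent.H928.Ore.TwFin.card_Fx (by norm_num : 1 < 2) (by rw [hF]; norm_num) hφ
  have := Fintype.ofFinite (Fx φ 1)
  have h2 := Cfsg.Agent.ClassicalGeometry.PSL2Basic.card_SL2 (F := Fx φ 1)
  rw [← Nat.card_eq_fintype_card, h1] at h2
  have h3 : Nat.card (Matrix.SpecialLinearGroup (Fin 2) (Fx φ 1)) = 6 := by rw [h2]; norm_num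
  rw [← h3]
  exact pow_card_eq_one'

omit hφ in
theorem card_sl3 (hφ : ∀ t, φ t = t ^ 2) (A : Matrix.SpecialLinearGroup (Fin 3) (Fx φ 1)) : A ^ 168 = 1 := by
  have h1 := Cfsg.Agent.H928.Ore.TwFin.card_Fx (by norm_num : 1 < 2) (by rw [hF]; norm_num) hφ
  have := Fintype.ofFinite (Fx φ 1)
  have h2 := Cfsg.Agent.ClassicalGeometry.PSL2Basic.card_SL2 (F := Fx φ 1)
  rw [← Nat.card_eq_fintype_card, h1] at h2
  have h4 := Cfsg.Agent.H231.QS.Lift.card_three (F := Fx φ 1)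
  rw [h2, h1] at h4
  have h3 : Nat.card (Matrix.SpecialLinearGroup (Fin 3) (Fx φ 1)) = 168 := by rw [h4]; norm_num
  rw [← h3]
  exact pow_card_eq_one'

variable {hq : ∀ t : F, (t ^ 2) ^ 2 = t} {π : Matrix.SpecialLinearGroup (Fin 3) F →* YY F}

/-- the preimage of `P₄` -/
theorem mem_P4 (B : Bk φ hφ hq π) {D : Matrix.SpecialLinearGroup (Fin 3) F}
    (h1 : (D : Matrix (Fin 3) (Fin 3) F) 1 0 = 0) (h2 : (D : Matrix (Fin 3) (Fin 3) F) 2 0 = 0) : π D ∈ P φ j4 := by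
  have := finW
  have hT : RGDTwE6.T F 2 ≤ P φ j4 := le_trans T_le_LJ LJ_le_PJ
  have h01 : ∀ c, Matrix.SpecialLinearGroup.transvection ne01 c ∈ (P φ j4).comap π := fun c => X_le_P (tv01_mem hφ B c)
  have h12 : ∀ c, Matrix.SpecialLinearGroup.transvection ne12 c ∈ (P φ j4).comap π := fun c => X_le_P (tv12_mem hφ B c)
  have h21 : ∀ c, Matrix.SpecialLinearGroup.transvection ne21 c ∈ (P φ j4).comap π := fun c =>
    LJ_le_PJ (Xn_le_L (i := 2) (by decide : (2 : Fin 4) ≠ 3) (le_sup_right (a := X φ (sr 2)) (tv21_mem hφ B c)))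
  have hd : ∀ a : Fˣ, dg3 a 1 ∈ (P φ j4).comap π := by
    intro a
    apply hT
    obtain ⟨b, hb⟩ : ∃ b : (Fx φ 2)ˣ, ((b : Fx φ 2) : F) = a :=
      ⟨⟨⟨a, Hom.mem_two hφ hq _⟩, ⟨((a⁻¹ : Fˣ) : F), Hom.mem_two hφ hq _⟩, Subtype.ext (by simp), Subtype.ext (by simp)⟩,
        rfl⟩
    rw [dg3_a1 hφ B a b hb]
    exact Cfsg.Agent.OddHalf.NI.Mult.dg_mem_T (rg hF hφ) (Cfsg.Agent.H958.TS.TwCommon.coordP hφ hq) 3 b
  exact mem3 h01 (mem02 h01 h12) h12 h21 hd h1 h2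

omit hF hφ [Fintype F] in
theorem norm_sup {K0 V0 : Subgroup (YY F)} {a : YY F} (h1 : a ∈ Subgroup.normalizer (K0 : Set (YY F)))
    (h2 : a ∈ Subgroup.normalizer (V0 : Set (YY F))) : a ∈ Subgroup.normalizer ((K0 ⊔ V0 : Subgroup (YY F)) : Set (YY F)) := by
  rw [mem_normalizer_iff_cj] at h1 h2 ⊢
  rw [cj_sup, h1, h2]

omit hF hφ [Fintype F] in
theorem conj_norm {K0 : Subgroup (YY F)} {a k : YY F} (h1 : a ∈ Subgroup.normalizer (K0 : Set (YY F))) (hk : k ∈ K0) :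
    a⁻¹ * k * a ∈ K0 := by
  have h2 := (Subgroup.mem_normalizer_iff.1 (inv_mem h1) k).1 hk
  rwa [inv_inv] at h2

omit hF hφ [Fintype F] in
/-- the conclusion if a point is fixed -/
theorem in_of {J : Set (Fin 4)} {K0 : Subgroup (YY F)} (hK : K0 ≤ P φ j4) {D E : Matrix.SpecialLinearGroup (Fin 3) F}
    (hE1 : π E ∈ Subgroup.normalizer (K0 : Set (YY F))) (hE2 : π E ∈ Subgroup.normalizer (V φ J : Set (YY F)))
    (h : π (E⁻¹ * D * E) ∈ P φ j4) {k v : YY F} (hk : k ∈ K0) (hv : v ∈ V φ J) : In φ j4 (π D * k * v) := by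
  refine ⟨(π E)⁻¹, ?_⟩
  have e : (π E)⁻¹ * (π D * k * v) * ((π E)⁻¹)⁻¹ =
      π (E⁻¹ * D * E) * ((π E)⁻¹ * k * π E) * ((π E)⁻¹ * v * π E) := by
    rw [map_mul, map_mul, map_inv]
    group
  rw [e]
  exact mul_mem (mul_mem h (hK (conj_norm hE1 hk))) (le_trans (VJ_le_B J) B_le_PJ (conj_norm hE2 hv))

/-- powers -/
theorem pow_in {J : Set (Fin 4)} {K0 : Subgroup (YY F)} {D : Matrix.SpecialLinearGroup (Fin 3) F}
    (hD1 : π D ∈ Subgroup.normalizer (K0 : Set (YY F))) (hD2 : π D ∈ Subgroup.normalizer (V φ J : Set (YY F)))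
    {k v : YY F} (hk : k ∈ K0) (hv : v ∈ V φ J) {n : ℕ} (hn : (π D * k * v) ^ n = 1) : π (D ^ n) ∈ K0 ⊔ V φ J := by
  obtain ⟨μ, hμ, e⟩ := Gen.pow_sn (norm_sup hD1 hD2) (mul_mem (mem_sup_left hk) (mem_sup_right hv) : k * v ∈ K0 ⊔ V φ J) n
  rw [← mul_assoc, hn, ← map_pow] at e
  have h1 : π (D ^ n) = μ⁻¹ := eq_inv_of_mul_eq_one_left e.symm
  rw [h1]
  exact inv_mem hμ

/-- an element of `K₀ V_J` of prime order `r` in the block -/
theorem ker_of {J : Set (Fin 4)} {K0 : Subgroup (YY F)} (hKL : K0 ≤ Lv φ J) {e : ℕ} (he : ∀ k ∈ K0, k ^ e = 1) {r : ℕ}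
    (hr : r.Prime) (hr2 : r ≠ 2) (hre : ¬ r ∣ e) {D : Matrix.SpecialLinearGroup (Fin 3) F} (hD : π D ∈ K0 ⊔ V φ J)
    (h1 : D ^ r = 1) : D ∈ π.ker := by
  have := finW
  have : Fact (Nat.Prime 2) := ⟨Nat.prime_two⟩
  exact Gen.eq_one_of (rg hF hφ) hKL he hr hr2 hre hD (by rw [← map_pow, h1, map_one])

/-- **`P₂`** -/
theorem case_j2 {g : YY F} (hg : g ∈ P φ j2) : In φ j4 g ∨ 7 ∣ orderOf g := by
  obtain ⟨π, B⟩ := exists_bk hF hφ
  have hR := rg hF hφ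
  have hfin := finW
  have c02 : ∀ a ∈ KK (X φ) (sr 0), ∀ b ∈ KK (X φ) (sr 2), a * b = b * a := Gen.comm_two hR (by decide) (by decide)
  have c03 : ∀ a ∈ KK (X φ) (sr 0), ∀ b ∈ KK (X φ) (sr 3), a * b = b * a := Gen.comm_two hR (by decide) (by decide)
  have m2 : (2 : Fin 4) ∈ j2 := show (2 : Fin 4) ≠ 1 by decide
  have m3 : (3 : Fin 4) ∈ j2 := show (3 : Fin 4) ≠ 1 by decide
  have m0 : (0 : Fin 4) ∈ j2 := show (0 : Fin 4) ≠ 1 by decide
  have hS : ∀ D, D ∈ (Subgroup.normalizer (KK (X φ) (sr 0) : Set (YY F))).comap π := gen3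
    (fun c => norm_of_comm fun k hk => (c03 k hk _ (mem_sup_left (tv01_mem hφ B c))).symm)
    (fun c => norm_of_comm fun k hk => (c03 k hk _ (mem_sup_right (tv10_mem hφ B c))).symm)
    (fun c => norm_of_comm fun k hk => (c02 k hk _ (mem_sup_left (tv12_mem hφ B c))).symm)
    (fun c => norm_of_comm fun k hk => (c02 k hk _ (mem_sup_right (tv21_mem hφ B c))).symm)
  have hL : ∀ D, D ∈ (Lv φ j2).comap π := gen3
    (fun c => Xn_le_L m3 (mem_sup_left (tv01_mem hφ B c)))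
    (fun c => Xn_le_L m3 (mem_sup_right (tv10_mem hφ B c)))
    (fun c => Xn_le_L m2 (mem_sup_left (tv12_mem hφ B c)))
    (fun c => Xn_le_L m2 (mem_sup_right (tv21_mem hφ B c)))
  have hV : ∀ D, π D ∈ Subgroup.normalizer (V φ j2 : Set (YY F)) := fun D => LJ_le_normalizer_VJ hR j2 (hL D)
  have hT : RGDTwE6.T F 2 ≤ π.range := by
    refine le_trans (T_le hF hφ B) ?_
    rintro _ ⟨D, -, rfl⟩
    exact ⟨D, rfl⟩
  have h2 : KK (X φ) (sr 2) ≤ π.range := sup_le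
    (fun x hx => by obtain ⟨c, hc⟩ := exists_tv12 hφ B hx; exact ⟨_, hc⟩)
    (fun x hx => by obtain ⟨c, hc⟩ := exists_tv21 hφ B hx; exact ⟨_, hc⟩)
  have h3 : KK (X φ) (sr 3) ≤ π.range := sup_le
    (fun x hx => by obtain ⟨c, hc⟩ := exists_tv01 hφ B hx; exact ⟨_, hc⟩)
    (fun x hx => by obtain ⟨c, hc⟩ := exists_tv10 hφ B hx; exact ⟨_, hc⟩)
  obtain ⟨_, ⟨D, rfl⟩, k, hk, v, hv, rfl⟩ := Gen.frame hR (J := j2) (J0 := {0}) (J1 := {2, 3}) (S := π.range)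
    (K0 := KK (X φ) (sr 0)) (fun i hi => (show ∀ i : Fin 4, i ≠ 1 → (i = 0 ∨ (i = 2 ∨ i = 3)) by decide) i hi) hT
    (fun i hi => by rw [Set.mem_singleton_iff.1 hi])
    (fun i hi => by
      rcases hi with rfl | hi
      · exact h2
      · rw [Set.mem_singleton_iff.1 hi]; exact h3)
    (by rintro _ ⟨D, rfl⟩; exact hS D) hg
  rcases Mat.sl3 hF (D := (D : Matrix (Fin 3) (Fin 3) F)) D.2 with ⟨w, a, hw, h⟩ | ⟨h21, h3'⟩
  · left
    obtain ⟨E, hE⟩ := exists_fst3 hw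
    have h4 := conj_fst hE h
    exact in_of (le_trans (Xn_le_L (show (0 : Fin 4) ≠ 3 by decide)) LJ_le_PJ) (hS E) (hV E)
      (mem_P4 hF hφ B (h4 1 (by decide)) (h4 2 (by decide))) hk hv
  · right
    by_contra h7
    have e21 : D ^ 21 = 1 := Subtype.ext (by rw [Matrix.SpecialLinearGroup.coe_pow]; exact h21)
    have e3 : D ^ 3 ≠ 1 := fun h => h3' (by
      have := congrArg (Subtype.val) h
      rw [Matrix.SpecialLinearGroup.coe_pow] at this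
      exact this)
    have h5 := pow_in hF hφ (hS D) (hV D) hk hv (pow_orderOf_eq_one (π D * k * v))
    obtain ⟨n, hn⟩ : ∃ n, n = orderOf (π D * k * v) := ⟨_, rfl⟩
    rw [← hn] at h5 h7
    have h6 : π (D ^ (n * 3)) ∈ KK (X φ) (sr 0) ⊔ V φ j2 := by
      rw [pow_mul, map_pow]
      exact pow_mem h5 3
    have h8 : (D ^ (n * 3)) ^ 7 = 1 := by
      rw [← pow_mul, show n * 3 * 7 = 21 * n by ring, pow_mul, e21, one_pow]
    have he : ∀ k ∈ KK (X φ) (sr 0), k ^ 6 = 1 := by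
      intro k hk
      obtain ⟨A, rfl⟩ := (Cfsg.Agent.H958.TS.TwCommon.coordP hφ (hqq hF)).KK_le_range 0 hk
      have h9 : A ^ 6 = 1 := card_sl2 hF hφ A
      rw [← map_pow, h9, map_one]
    have h9 := B.ker (ker_of hF hφ (Xn_le_L m0) he (by norm_num : Nat.Prime 7) (by norm_num) (by norm_num) h6 h8)
    obtain ⟨c, hc, h10⟩ := (Matrix.SpecialLinearGroup.mem_center_iff).1 h9
    have h11 : (D ^ (n * 3)) ^ 3 = 1 := by
      apply Subtype.ext
      rw [Matrix.SpecialLinearGroup.coe_pow, ← h10, ← map_pow, show (c ^ 3) = 1 from hc, map_one]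
      rfl
    apply e3
    have hcop : Nat.Coprime n 7 := ((Nat.Prime.coprime_iff_not_dvd (by norm_num)).2 h7).symm
    have h12 : orderOf (D ^ 3) ∣ 1 := by
      have g1 : (D ^ 3) ^ (n * 3) = 1 := by rw [← pow_mul, mul_comm, pow_mul]; exact h11
      have g2 : (D ^ 3) ^ 7 = 1 := by rw [← pow_mul]; exact e21
      rw [← (Nat.Coprime.mul_left hcop (by norm_num : Nat.Coprime 3 7)).gcd_eq_one]
      exact Nat.dvd_gcd (orderOf_dvd_of_pow_eq_one g1) (orderOf_dvd_of_pow_eq_one g2)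
    exact orderOf_eq_one_iff.1 (Nat.dvd_one.1 h12)

/-- the long block -/
theorem long_pow {k : YY F} (hk : k ∈ KK (X φ) (sr 0) ⊔ KK (X φ) (sr 1)) : k ^ 168 = 1 := by
  obtain ⟨P, hP⟩ := Cfsg.Agent.H162.GaussExcMain.exists_hom_D RGDTwE6.hp (K := F) (ε := 1) (by norm_num)
    Cfsg.Agent.H162.GaussExcMain.rt6.1 Cfsg.Agent.H162.GaussExcMain.rt6.2.1 Cfsg.Agent.H162.GaussExcMain.rt6.2.2.1
    Cfsg.Agent.H162.GaussExcMain.rt6.2.2.2
  obtain ⟨f, hf⟩ := Cfsg.Agent.H928.Ore.TwF.exists_f hφ (hqq hF) hP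
  have h1 : ∀ {z : Fin 4 → ℤ}, IsRoot cs RGDTwE6.isCartan z →
      (∀ k, k ∉ Cfsg.Agent.H928.Ore.TwE.JR → z k = 0) → X φ z ≤ f.range := by
    intro z hz h2 x hx
    obtain ⟨a, b, hab, -, -, h3⟩ := Cfsg.Agent.H928.Ore.TwF.X_eq_f hφ (hqq hF) hP hf cs hz h2
    obtain ⟨c, rfl⟩ := h3 x hx
    exact ⟨_, rfl⟩
  have h2 : ∀ i : Fin 4, (i = 0 ∨ i = 1) → KK (X φ) (sr i) ≤ f.range := by
    intro i hi
    have h3 : ∀ k, k ∉ Cfsg.Agent.H928.Ore.TwE.JR → (sr i : Fin 4 → ℤ) k = 0 := by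
      intro k hk
      have h4 : k ≠ i := by rintro rfl; exact hk hi
      simp [sr, h4]
    refine sup_le (h1 (isRoot_sr cs RGDTwE6.isCartan i) h3) (h1 (isRoot_sr cs RGDTwE6.isCartan i).neg fun k hk => ?_)
    rw [Pi.neg_apply, h3 k hk, neg_zero]
  obtain ⟨A, rfl⟩ := (sup_le (h2 0 (Or.inl rfl)) (h2 1 (Or.inr rfl))) hk
  rw [← map_pow, card_sl3 hF hφ A, map_one]

/-- **`P₃`** -/
theorem case_j3 {g : YY F} (hg : g ∈ P φ j3) : In φ j4 g ∨ 5 ∣ orderOf g := by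
  obtain ⟨π, B⟩ := exists_bk hF hφ
  have hR := rg hF hφ
  have hfin := finW
  have c03 : ∀ a ∈ KK (X φ) (sr 0), ∀ b ∈ KK (X φ) (sr 3), a * b = b * a := Gen.comm_two hR (by decide) (by decide)
  have c13 : ∀ a ∈ KK (X φ) (sr 1), ∀ b ∈ KK (X φ) (sr 3), a * b = b * a := Gen.comm_two hR (by decide) (by decide)
  have m0 : (0 : Fin 4) ∈ j3 := show (0 : Fin 4) ≠ 2 by decide
  have m1 : (1 : Fin 4) ∈ j3 := show (1 : Fin 4) ≠ 2 by decide
  have m3 : (3 : Fin 4) ∈ j3 := show (3 : Fin 4) ≠ 2 by decide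
  have hTn : ∀ i : Fin 4, RGDTwE6.T F 2 ≤ Subgroup.normalizer (KK (X φ) (sr i) : Set (YY F)) := by
    intro i t ht
    have h1 := isRoot_sr cs RGDTwE6.isCartan i
    exact norm_sup (mem_normalizer_iff_cj.2 (hR.tor _ h1 t ht)) (mem_normalizer_iff_cj.2 (hR.tor _ h1.neg t ht))
  have h3n : ∀ a ∈ KK (X φ) (sr 3), a ∈ Subgroup.normalizer ((KK (X φ) (sr 0) ⊔ KK (X φ) (sr 1) : Subgroup (YY F)) : Set (YY F)) :=
    fun a ha => norm_sup (norm_of_comm fun k hk => (c03 k hk a ha).symm) (norm_of_comm fun k hk => (c13 k hk a ha).symm)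
  have hSn : (RGDTwE6.T F 2 ⊔ KK (X φ) (sr 3) : Subgroup (YY F)) ≤
      Subgroup.normalizer ((KK (X φ) (sr 0) ⊔ KK (X φ) (sr 1) : Subgroup (YY F)) : Set (YY F)) :=
    sup_le (fun t ht => norm_sup (hTn 0 ht) (hTn 1 ht)) h3n
  have hSL : (RGDTwE6.T F 2 ⊔ KK (X φ) (sr 3) : Subgroup (YY F)) ≤ Lv φ j3 := sup_le T_le_LJ (Xn_le_L m3)
  have hKL : (KK (X φ) (sr 0) ⊔ KK (X φ) (sr 1) : Subgroup (YY F)) ≤ Lv φ j3 := sup_le (Xn_le_L m0) (Xn_le_L m1)
  have hb3 : ∀ A : Matrix.SpecialLinearGroup (Fin 2) F, A ∈ (KK (X φ) (sr 3)).comap (π.comp blu) := by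
    have h1 : (KK (X φ) (sr 3)).comap (π.comp blu) = ⊤ := Cfsg.Agent.OddHalf.NI.Mult.mem_of_up_lo
      (fun a => by
        rw [Subgroup.mem_comap, MonoidHom.comp_apply, blu_up]
        exact mem_sup_left (tv01_mem hφ B a))
      (fun a => by
        rw [Subgroup.mem_comap, MonoidHom.comp_apply, blu_lo]
        exact mem_sup_right (tv10_mem hφ B a))
    intro A
    rw [h1]
    exact mem_top A
  have hex3 : KK (X φ) (sr 3) ≤ (π.comp blu).range := sup_le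
    (fun x hx => by
      obtain ⟨c, hc⟩ := exists_tv01 hφ B hx
      refine ⟨Cfsg.Agent.OddHalf.NI.Mult.up c, ?_⟩
      change π (blu _) = x
      rw [blu_up]
      exact hc)
    (fun x hx => by
      obtain ⟨c, hc⟩ := exists_tv10 hφ B hx
      refine ⟨Cfsg.Agent.OddHalf.NI.Mult.lo c, ?_⟩
      change π (blu _) = x
      rw [blu_lo]
      exact hc)
  obtain ⟨s, hs, k, hk, v, hv, rfl⟩ := Gen.frame hR (J := j3) (J0 := {0, 1}) (J1 := {3})
    (S := RGDTwE6.T F 2 ⊔ KK (X φ) (sr 3)) (K0 := KK (X φ) (sr 0) ⊔ KK (X φ) (sr 1))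
    (fun i hi => (show ∀ i : Fin 4, i ≠ 2 → ((i = 0 ∨ i = 1) ∨ i = 3) by decide) i hi) le_sup_left
    (fun i hi => by
      rcases hi with rfl | hi
      · exact le_sup_left
      · rw [Set.mem_singleton_iff.1 hi]; exact le_sup_right)
    (fun i hi => by rw [Set.mem_singleton_iff.1 hi]; exact le_sup_right) hSn hg
  obtain ⟨a, b, A, rfl⟩ : ∃ (a b : Fˣ) (A : Matrix.SpecialLinearGroup (Fin 2) F), π (dg3 a b * blu A) = s := by
    have h1 : s ∈ ((RGDTwE6.T F 2 ⊔ KK (X φ) (sr 3) : Subgroup (YY F)) : Set (YY F)) := hs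
    rw [Subgroup.coe_mul_of_left_le_normalizer_right _ _ (hTn 3), Set.mem_mul] at h1
    obtain ⟨t, ht, x, hx, rfl⟩ := h1
    obtain ⟨_, ⟨⟨a, b⟩, rfl⟩, e1⟩ := T_le hF hφ B ht
    obtain ⟨A, e2⟩ := hex3 hx
    refine ⟨a, b, A, ?_⟩
    rw [map_mul]
    exact congrArg₂ (· * ·) e1 e2
  obtain ⟨D, hD⟩ : ∃ D, D = dg3 a b * blu A := ⟨_, rfl⟩
  rw [← hD] at hs ⊢
  have hmx : (D : Matrix (Fin 3) (Fin 3) F) =
      mx (Matrix.diagonal ![(a : F), (a : F)⁻¹ * b] * (A : Matrix (Fin 2) (Fin 2) F)) (b : F)⁻¹ := by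
    rw [hD]; exact dg3_blu a b A
  obtain ⟨B', hB'⟩ : ∃ B', B' = Matrix.diagonal ![(a : F), (a : F)⁻¹ * b] * (A : Matrix (Fin 2) (Fin 2) F) := ⟨_, rfl⟩
  rw [← hB'] at hmx
  have hdet : B'.det = b := by
    rw [hB', Matrix.det_mul, A.2, Matrix.det_diagonal, Fin.prod_univ_two]
    simp
  by_cases hv2 : ∃ (w : Fin 2 → F) (c : F), w ≠ 0 ∧ B'.mulVec w = c • w
  · left
    obtain ⟨w, c, hw, e⟩ := hv2
    obtain ⟨E, hE⟩ := exists_fst2 hw
    have hE3 : ((blu E : Matrix.SpecialLinearGroup (Fin 3) F) : Matrix (Fin 3) (Fin 3) F).mulVec (Pi.single 0 1) =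
        ![w 0, w 1, 0] := by
      have g0 := congrFun hE 0
      have g1 := congrFun hE 1
      change (!![E 0 0, E 0 1, 0; E 1 0, E 1 1, 0; 0, 0, 1] : Matrix (Fin 3) (Fin 3) F).mulVec _ = _
      simp [Matrix.mulVec, dotProduct, Fin.sum_univ_two] at g0 g1
      funext i
      fin_cases i <;> simp [Matrix.mulVec, dotProduct, Fin.sum_univ_three, g0, g1]
    have hDE : (D : Matrix (Fin 3) (Fin 3) F).mulVec ![w 0, w 1, 0] = c • ![w 0, w 1, 0] := by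
      have g0 := congrFun e 0
      have g1 := congrFun e 1
      rw [hmx]
      simp [Matrix.mulVec, dotProduct, Fin.sum_univ_two] at g0 g1
      funext i
      fin_cases i <;> simp [mx, Matrix.mulVec, dotProduct, Fin.sum_univ_three, g0, g1]
    have h4 := conj_fst hE3 hDE
    have hE4 : π (blu E) ∈ KK (X φ) (sr 3) := hb3 E
    exact in_of (K0 := KK (X φ) (sr 0) ⊔ KK (X φ) (sr 1))
      (sup_le (le_trans (Xn_le_L (show (0 : Fin 4) ≠ 3 by decide)) LJ_le_PJ)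
        (le_trans (Xn_le_L (show (1 : Fin 4) ≠ 3 by decide)) LJ_le_PJ)) (h3n _ hE4)
      (LJ_le_normalizer_VJ hR j3 (hSL (mem_sup_right hE4)))
      (mem_P4 hF hφ B (h4 1 (by decide)) (h4 2 (by decide))) hk hv
  · right
    by_contra h5
    have hb3' : (b : F) ^ 3 = 1 := by
      have := FiniteField.pow_card_sub_one_eq_one (b : F) b.ne_zero
      rwa [hF] at this
    have hb0 : (b : F) ≠ 0 := b.ne_zero
    have e5 : ((D ^ 5 : Matrix.SpecialLinearGroup (Fin 3) F) : Matrix (Fin 3) (Fin 3) F) = Matrix.scalar (Fin 3) (b : F) := by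
      rw [Matrix.SpecialLinearGroup.coe_pow, hmx, mx_pow, Mat.gl2 hF hv2, hdet, ← mx_scalar]
      congr 1
      have e6 : (b : F) * (b : F) ^ 5 = 1 := by
        rw [← pow_succ', show 5 + 1 = 3 * 2 by norm_num, pow_mul, hb3', one_pow]
      rw [inv_pow]
      exact (eq_inv_of_mul_eq_one_left e6).symm
    have e15 : D ^ 15 = 1 := by
      apply Subtype.ext
      rw [show 15 = 5 * 3 by norm_num, pow_mul, Matrix.SpecialLinearGroup.coe_pow, e5, ← map_pow, hb3', map_one]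
      rfl
    have hDn1 := hSn hs
    have hDn2 := LJ_le_normalizer_VJ hR j3 (hSL hs)
    have h6 := pow_in hF hφ hDn1 hDn2 hk hv (pow_orderOf_eq_one (π D * k * v))
    obtain ⟨n, hn⟩ : ∃ n, n = orderOf (π D * k * v) := ⟨_, rfl⟩
    rw [← hn] at h5 h6
    have h7 : π (D ^ (n * 3)) ∈ (KK (X φ) (sr 0) ⊔ KK (X φ) (sr 1)) ⊔ V φ j3 := by
      rw [pow_mul, map_pow]
      exact pow_mem h6 3
    have h8 : (D ^ (n * 3)) ^ 5 = 1 := by
      rw [← pow_mul, show n * 3 * 5 = 15 * n by ring, pow_mul, e15, one_pow]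
    have h9 := B.ker (ker_of hF hφ hKL (fun k hk => long_pow hF hφ hk) (by norm_num : Nat.Prime 5) (by norm_num)
      (by norm_num) h7 h8)
    have h10 : D ^ 5 ∈ center (Matrix.SpecialLinearGroup (Fin 3) F) := by
      rw [Matrix.SpecialLinearGroup.mem_center_iff]
      refine ⟨b, ?_, e5.symm⟩
      exact hb3'
    have hcop : IsCoprime ((n * 3 : ℕ) : ℤ) ((5 : ℕ) : ℤ) := by
      rw [Nat.isCoprime_iff_coprime]
      exact Nat.Coprime.mul_left ((Nat.Prime.coprime_iff_not_dvd (by norm_num)).2 h5).symm (by norm_num)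
    obtain ⟨x, y, hxy⟩ := hcop
    have h11 : D ∈ center (Matrix.SpecialLinearGroup (Fin 3) F) := by
      have h12 : D = (D ^ (n * 3)) ^ x * (D ^ 5) ^ y := by
        rw [← zpow_natCast D (n * 3), ← zpow_natCast D 5, ← zpow_mul, ← zpow_mul, ← zpow_add]
        rw [show ((n * 3 : ℕ) : ℤ) * x + ((5 : ℕ) : ℤ) * y = 1 by rw [← hxy]; ring, zpow_one]
      rw [h12]
      exact mul_mem (zpow_mem h9 x) (zpow_mem h10 y)
    obtain ⟨c, -, h12⟩ := (Matrix.SpecialLinearGroup.mem_center_iff).1 h11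
    apply hv2
    refine ⟨Pi.single 0 1, c, ?_, ?_⟩
    · intro h
      have := congrFun h 0
      simp at this
    · rw [hmx] at h12
      have g1 := congrFun (congrFun h12 0) 0
      have g2 := congrFun (congrFun h12 1) 0
      simp [mx] at g1 g2
      funext i
      fin_cases i
      · simp [Matrix.mulVec, dotProduct, Fin.sum_univ_two, g1]
      · simp [Matrix.mulVec, dotProduct, Fin.sum_univ_two, ← g2]

/-- **`PAR`** -/
theorem par (g z : YY F) (hz : z ≠ 1) (hz2 : z * z = 1) (hc : g * z = z * g) :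
    In φ j1 g ∨ In φ j4 g ∨ 5 ∣ orderOf g ∨ 7 ∣ orderOf g := by
  have hfin := finW
  have : CharP F 2 := charTwo hF
  have : Fact (Nat.Prime 2) := ⟨Nat.prime_two⟩
  have hK : IsPGroup 2 (Subgroup.zpowers z) := by
    rintro ⟨x, hx⟩
    obtain ⟨k, rfl⟩ := hx
    refine ⟨1, Subtype.ext ?_⟩
    change (z ^ k) ^ 2 ^ 1 = 1
    rw [pow_one, ← zpow_natCast, ← zpow_mul, mul_comm, zpow_mul]
    norm_num
    rw [sq, hz2, one_zpow]
  have hK1 : Subgroup.zpowers z ≠ ⊥ := by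
    rw [Ne, Subgroup.zpowers_eq_bot]
    exact hz
  obtain ⟨a, J, hJ, -, h2⟩ := Cfsg.Agent.KFacts.RgdFilt.borel_tits_of_filt
    (Cfsg.Agent.KFacts.RgdFiltTwAll.filt_fold cs RGDTwE6.isCartan RGDTwE6.foldData (RGDTwE6.foldGrp hφ (hqq hF)) 2)
    (RGDTwE6.G1_eq_top cs hφ (hqq hF)) hK hK1
  have h3 : g ∈ Subgroup.normalizer (Subgroup.zpowers z : Set (YY F)) := by
    refine norm_of_comm fun k hk => ?_
    obtain ⟨m, rfl⟩ := Subgroup.mem_zpowers_iff.1 hk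
    exact (Commute.zpow_right hc m).eq
  have h4 := h2 h3
  rw [mem_cj] at h4
  have hin : ∀ {J' : Set (Fin 4)}, In φ J' (a⁻¹ * g * a) → In φ J' g := by
    rintro J' ⟨x, hx⟩
    refine ⟨x * a⁻¹, ?_⟩
    have e : x * a⁻¹ * g * (x * a⁻¹)⁻¹ = x * (a⁻¹ * g * a) * x⁻¹ := by group
    rw [e]
    exact hx
  have ho : orderOf (a⁻¹ * g * a) = orderOf g := by
    have h5 : a⁻¹ * g * a = MulAut.conj a⁻¹ g := by rw [MulAut.conj_apply, inv_inv]
    rw [h5]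
    exact orderOf_injective (MulAut.conj a⁻¹).toMonoidHom (MulAut.conj a⁻¹).injective g
  obtain ⟨i, hi⟩ : ∃ i, i ∉ J := by
    by_contra hcon
    push Not at hcon
    exact hJ (Set.eq_univ_of_forall hcon)
  have h5 : ∀ j : Set (Fin 4), (∀ k, k ≠ i → k ∈ j) → a⁻¹ * g * a ∈ P φ j := fun j hj =>
    PJ_mono (fun k hk => hj k (by rintro rfl; exact hi hk)) h4
  fin_cases i
  · exact Or.inl (hin ⟨1, by rw [one_mul, inv_one, mul_one]; exact h5 j1 fun k hk => hk⟩)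
  · rcases case_j2 hF hφ (h5 j2 fun k hk => hk) with h6 | h6
    · exact Or.inr (Or.inl (hin h6))
    · exact Or.inr (Or.inr (Or.inr (ho ▸ h6)))
  · rcases case_j3 hF hφ (h5 j3 fun k hk => hk) with h6 | h6
    · exact Or.inr (Or.inl (hin h6))
    · exact Or.inr (Or.inr (Or.inl (ho ▸ h6)))
  · exact Or.inr (Or.inl (hin ⟨1, by rw [one_mul, inv_one, mul_one]; exact h5 j4 fun k hk => hk⟩))

end Cfsg.Agent.H287.F4.Par
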