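import Cfsg.Agent.H287.F4.Par

/-!
# `²E₆(2)`: elements commuting with an involution, with the position of the involution (S2491, row F4)

* `par_split` : if `g z = z g`, `z² = 1 ≠ z`, then `g` is conjugate into `P₁` or `P₄`, or a conjugate of `(g, z)` is in
  `(P₂, V₂)` and `7 ∣ orderOf g`, or in `(P_J, V_J)`, `J = {0,1,3}` or `{0,3}`, and `5 ∣ orderOf g`.
-/

set_option autoImplicit false
set_option linter.unusedSectionVars false

namespace Cfsg.Agent.H287.F4.Par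

open CoxeterSystem Cfsg.Agent.ChevalleyStructure.CoxeterGeom Cfsg.Agent.Tits.Roots Cfsg.Agent.Tits.Core
  Cfsg.Agent.Nodes Cfsg.Agent.Nodes.Reps Cfsg.Agent.Nodes.BNOf Cfsg.Agent.Nodes.RGDLib Cfsg.Agent.Nodes.Bruhat
  Cfsg.Agent.Nodes.OppDec Cfsg.Agent.Nodes.LeviDec Cfsg.Agent.Nodes.StabComb
open Cfsg.Lie Subgroup
open Cfsg.Agent.H231.QF (cs X V Lv P j1 j2 j3 j4 In Out CR Sm)
open Cfsg.Agent.H164.F4.OutV (charTwo hqq gg_top)

universe u

/-- the group -/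
local notation "YY" => Cfsg.Agent.H231.QF.KK

variable {F : Type u} [Field F] [Fintype F] (hF : Fintype.card F = 4) {φ : F →+* F} (hφ : ∀ t, φ t = t ^ 2)

include hF hφ

theorem par_split (g z : YY F) (hz : z ≠ 1) (hz2 : z * z = 1) (hc : g * z = z * g) :
    In φ j1 g ∨ In φ j4 g ∨
      (∃ x : YY F, x * g * x⁻¹ ∈ P φ j2 ∧ x * z * x⁻¹ ∈ V φ j2 ∧ 7 ∣ orderOf (x * g * x⁻¹)) ∨
      ∃ (x : YY F) (J : Set (Fin 4)), (J = j3 ∨ J = {0, 3}) ∧ x * g * x⁻¹ ∈ P φ J ∧ x * z * x⁻¹ ∈ V φ J ∧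
        5 ∣ orderOf (x * g * x⁻¹) := by
  have hfin := finW
  have : CharP F 2 := charTwo hF
  have : Fact (Nat.Prime 2) := ⟨Nat.prime_two⟩
  have hK : IsPGroup 2 (Subgroup.zpowers z) := by
    rintro ⟨x, hx⟩
    obtain ⟨k, rfl⟩ := hx
    refine ⟨1, Subtype.ext ?_⟩
    change (z ^ k) ^ 2 ^ 1 = 1
    rw [pow_one, ← zpow_natCast, ← zpow_mul, mul_comm, zpow_mul]
    norm_num
    rw [sq, hz2, one_zpow]
  have hK1 : Subgroup.zpowers z ≠ ⊥ := by
    rw [Ne, Subgroup.zpowers_eq_bot]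
    exact hz
  obtain ⟨a, J, hJ, h1, h2⟩ := Cfsg.Agent.KFacts.RgdFilt.borel_tits_of_filt
    (Cfsg.Agent.KFacts.RgdFiltTwAll.filt_fold cs RGDTwE6.isCartan RGDTwE6.foldData (RGDTwE6.foldGrp hφ (hqq hF)) 2)
    (RGDTwE6.G1_eq_top cs hφ (hqq hF)) hK hK1
  have h3 : g ∈ Subgroup.normalizer (Subgroup.zpowers z : Set (YY F)) := by
    refine norm_of_comm fun k hk => ?_
    obtain ⟨m, rfl⟩ := Subgroup.mem_zpowers_iff.1 hk
    exact (Commute.zpow_right hc m).eq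
  have h4 := h2 h3
  have h1' := h1 (Subgroup.mem_zpowers z)
  rw [mem_cj] at h4 h1'
  have h4' : a⁻¹ * g * (a⁻¹)⁻¹ ∈ P φ J := by rw [inv_inv]; exact h4
  have h1'' : a⁻¹ * z * (a⁻¹)⁻¹ ∈ V φ J := by rw [inv_inv]; exact h1'
  obtain ⟨i, hi⟩ : ∃ i, i ∉ J := by
    by_contra hcon
    push Not at hcon
    exact hJ (Set.eq_univ_of_forall hcon)
  have h5 : ∀ (i : Fin 4) (j : Set (Fin 4)), i ∉ J → (∀ k, k ≠ i → k ∈ j) → a⁻¹ * g * (a⁻¹)⁻¹ ∈ P φ j :=
    fun i j hi hj => PJ_mono (fun k hk => hj k (by rintro rfl; exact hi hk)) h4'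
  have hin : ∀ {J' : Set (Fin 4)}, In φ J' (a⁻¹ * g * (a⁻¹)⁻¹) → In φ J' g := by
    rintro J' ⟨x, hx⟩
    refine ⟨x * a⁻¹, ?_⟩
    have e : x * a⁻¹ * g * (x * a⁻¹)⁻¹ = x * (a⁻¹ * g * (a⁻¹)⁻¹) * x⁻¹ := by group
    rw [e]
    exact hx
  by_cases h0 : (0 : Fin 4) ∈ J
  swap
  · exact Or.inl ⟨a⁻¹, h5 0 j1 h0 fun k hk => hk⟩
  by_cases h3' : (3 : Fin 4) ∈ J
  swap
  · exact Or.inr (Or.inl ⟨a⁻¹, h5 3 j4 h3' fun k hk => hk⟩)
  by_cases h22 : (2 : Fin 4) ∈ J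
  · have h11 : (1 : Fin 4) ∉ J := by
      intro h11
      apply hi
      have : ∀ i : Fin 4, i = 0 ∨ i = 1 ∨ i = 2 ∨ i = 3 := by decide
      rcases this i with rfl | rfl | rfl | rfl <;> assumption
    have hJ2 : J = j2 := by
      ext k
      constructor
      · rintro hk rfl
        exact h11 hk
      · intro hk
        have h6 : k ≠ 1 := hk
        have : ∀ i : Fin 4, i ≠ 1 → i = 0 ∨ i = 2 ∨ i = 3 := by decide
        rcases this k h6 with rfl | rfl | rfl <;> assumption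
    rw [hJ2] at h4' h1''
    rcases case_j2 hF hφ h4' with h6 | h6
    · exact Or.inr (Or.inl (hin h6))
    · exact Or.inr (Or.inr (Or.inl ⟨a⁻¹, h4', h1'', h6⟩))
  · rcases case_j3 hF hφ (h5 2 j3 h22 fun k hk => hk) with h6 | h6
    · exact Or.inr (Or.inl (hin h6))
    · refine Or.inr (Or.inr (Or.inr ⟨a⁻¹, J, ?_, h4', h1'', h6⟩))
      by_cases h11 : (1 : Fin 4) ∈ J
      · left
        ext k
        constructor
        · rintro hk rfl
          exact h22 hk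
        · intro hk
          have h7 : k ≠ 2 := hk
          have : ∀ i : Fin 4, i ≠ 2 → i = 0 ∨ i = 1 ∨ i = 3 := by decide
          rcases this k h7 with rfl | rfl | rfl <;> assumption
      · right
        ext k
        constructor
        · intro hk
          have h7 : k ≠ 2 := by rintro rfl; exact h22 hk
          have h8 : k ≠ 1 := by rintro rfl; exact h11 hk
          exact (show ∀ i : Fin 4, i ≠ 2 → i ≠ 1 → (i = 0 ∨ i = 3) by decide) k h7 h8
        · rintro (rfl | hk)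
          · exact h0
          · rw [Set.mem_singleton_iff.1 hk]
            exact h3'

end Cfsg.Agent.H287.F4.Par
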